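import Cfsg.Agent.H381.Car.Conj
import Cfsg.Agent.H381.Car.Fpf
import Cfsg.Prelude.Def_Classification2
import Cfsg.Prelude.Def_LieTypeChar

/-!
# Carter subgroups (S3852): the interface of the Lie type layer (helper310)

`AS G S K` : `S` is a nonabelian simple normal subgroup of `G` with trivial centraliser, `K` a Carter subgroup of `G`
with `G = K S`, and all smaller groups have conjugate Carter subgroups.

* `DOn ok S K` : every odd prime dividing `|K ∩ S|` satisfies `ok`;
* `NTwo S K`   : `K` normalises a Sylow `2`-subgroup of `S`;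
* `IHodd n`    : what is known for all groups of order `< n` whose socle is of Lie type in odd characteristic;
* `IHtwo n`    : the same in characteristic two.
-/

set_option autoImplicit false

namespace Cfsg.Agent.H310.Car

open Cfsg Subgroup Pointwise Cfsg.Agent.Solvable.Carter Cfsg.Agent.H18.Carter Cfsg.Agent.H381.Car

universe u

/-- all smaller groups have conjugate Carter subgroups -/
def Sm (G : Type u) [Group G] : Prop := ∀ (B : Type u) [Group B] [Finite B], Nat.card B < Nat.card G → CC B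

/-- the almost simple situation -/
structure AS (G : Type u) [Group G] (S K : Subgroup G) : Prop where
  normal : S.Normal
  simple : IsSimpleGroup S
  na : ¬ ∀ a b : S, a * b = b * a
  cen : centralizer (S : Set G) = ⊥
  min : Sm G
  carter : IsCarter K
  prod : K ⊔ S = ⊤

section

variable {G : Type u} [Group G]

/-- every odd prime dividing `|K ∩ S|` satisfies `ok` -/
def DOn (ok : ℕ → Prop) (S K : Subgroup G) : Prop :=
  ∀ r : ℕ, r.Prime → r ≠ 2 → r ∣ Nat.card ↥(K ⊓ S) → ok r

/-- `K` normalises a Sylow `2`-subgroup of `S` -/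
def NTwo (S K : Subgroup G) : Prop :=
  ∃ P : Subgroup G, P ≤ S ∧ IsPGroup 2 P ∧ ¬ 2 ∣ P.relIndex S ∧ K ≤ normalizer (P : Set G)

end

/-- `q = 3^(2m+1)` -/
def ThreeOdd (q : ℕ) : Prop := ∃ m : ℕ, q = 3 ^ (2 * m + 1)

/-- no odd prime divides `|K ∩ S|` -/
abbrev DTwo {G : Type u} [Group G] (S K : Subgroup G) : Prop := DOn (fun _ => False) S K

/-- what is known for the groups of order `< n` (socle of Lie type in odd characteristic) -/
structure IHodd (n : ℕ) : Prop where
  psl2 : ∀ {G : Type u} [Group G] [Finite G] {S K : Subgroup G}, AS G S K → Nat.card G < n →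
    ∀ (F : Type) [Field F] [Fintype F], Odd (Fintype.card F) →
      Nonempty (S ≃* Matrix.ProjectiveSpecialLinearGroup (Fin 2) F) →
      (¬ ThreeOdd (Fintype.card F) → DTwo S K) ∧
      (ThreeOdd (Fintype.card F) → DTwo S K ∨ IsPGroup 3 ↥(K ⊓ S))
  psl : ∀ {G : Type u} [Group G] [Finite G] {S K : Subgroup G}, AS G S K → Nat.card G < n →
    ∀ (F : Type) [Field F] [Fintype F] (k : ℕ), Odd (Fintype.card F) → 3 ≤ k →
      Nonempty (S ≃* Matrix.ProjectiveSpecialLinearGroup (Fin k) F) →
      DOn (fun r => r ∣ Fintype.card F - 1) S K ∧ NTwo S K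
  psu : ∀ {G : Type u} [Group G] [Finite G] {S K : Subgroup G}, AS G S K → Nat.card G < n →
    ∀ (F : Type) [Field F] [Fintype F] (k q : ℕ), Odd q → Fintype.card F = q ^ 2 → 3 ≤ k →
      Nonempty (S ≃* PSU k F q) →
      DOn (fun r => r ∣ q + 1) S K ∧ NTwo S K
  psp : ∀ {G : Type u} [Group G] [Finite G] {S K : Subgroup G}, AS G S K → Nat.card G < n →
    ∀ (F : Type) [Field F] [Fintype F] (k : ℕ), Odd (Fintype.card F) → 2 ≤ k →
      Nonempty (S ≃* PSp k F) → DTwo S K
  podd : ∀ {G : Type u} [Group G] [Finite G] {S K : Subgroup G}, AS G S K → Nat.card G < n →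
    ∀ (F : Type) [Field F] [Fintype F] (k : ℕ), Odd (Fintype.card F) → 3 ≤ k →
      Nonempty (S ≃* POmega F (quadFormOdd k F)) → DTwo S K
  pplus : ∀ {G : Type u} [Group G] [Finite G] {S K : Subgroup G}, AS G S K → Nat.card G < n →
    ∀ (F : Type) [Field F] [Fintype F] (k : ℕ), Odd (Fintype.card F) → 4 ≤ k →
      Nonempty (S ≃* POmega F (quadFormPlus k F)) → DTwo S K
  pminus : ∀ {G : Type u} [Group G] [Finite G] {S K : Subgroup G}, AS G S K → Nat.card G < n →
    ∀ (F : Type) [Field F] [Fintype F] (k : ℕ) (a b : F), Odd (Fintype.card F) → 4 ≤ k →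
      (∀ z₁ z₂ : F, z₁ ^ 2 + a * z₁ * z₂ + b * z₂ ^ 2 = 0 → z₁ = 0 ∧ z₂ = 0) →
      Nonempty (S ≃* POmega F (quadFormMinus (k - 1) F a b)) → DTwo S K
  e6 : ∀ {G : Type u} [Group G] [Finite G] {S K : Subgroup G}, AS G S K → Nat.card G < n →
    ∀ (F : Type) [Field F] [Fintype F], Odd (Fintype.card F) → Nonempty (S ≃* Lie.chevE6.group F) →
      DOn (fun r => r ∣ Fintype.card F - 1) S K ∧ NTwo S K
  te6 : ∀ {G : Type u} [Group G] [Finite G] {S K : Subgroup G}, AS G S K → Nat.card G < n →
    ∀ (F : Type) [Field F] [Fintype F] (q : ℕ), Odd q → Fintype.card F = q ^ 2 → Nonempty (S ≃* Lie.twistedE6 F q) →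
      DOn (fun r => r ∣ q + 1) S K ∧ NTwo S K
  e7 : ∀ {G : Type u} [Group G] [Finite G] {S K : Subgroup G}, AS G S K → Nat.card G < n →
    ∀ (F : Type) [Field F] [Fintype F], Odd (Fintype.card F) → Nonempty (S ≃* Lie.chevE7.group F) → DTwo S K

/-- what is known for the groups of order `< n` (socle of Lie type in characteristic two) -/
structure IHtwo (n : ℕ) : Prop where
  lie : ∀ {G : Type u} [Group G] [Finite G] {S K : Subgroup G}, AS G S K → Nat.card G < n →
    IsLieTypeChar 2 S → NTwo S K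

section

variable {G : Type u} [Group G] [Finite G] {S K : Subgroup G}

theorem _root_.Cfsg.Agent.H18.Carter.Ctx.as [S.Normal] (c : Ctx G S) (hK : IsCarter K) : AS G S K :=
  ⟨inferInstance, c.simple, c.na, c.cen, c.min, hK, c.prod K hK⟩

/-- two Carter subgroups normalising Sylow `2`-subgroups of `S` are conjugate -/
theorem conj_of_nTwo [S.Normal] (c : Ctx G S) (h2 : 2 ∣ Nat.card S) {K H : Subgroup G} (hK : IsCarter K)
    (hH : IsCarter H) (h1 : NTwo S K) (h3 : NTwo S H) : ∃ g : G, MulAut.conj g • K = H := by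
  obtain ⟨P, hPS, hPp, hPl, hPK⟩ := h1
  obtain ⟨R, hRS, hRp, hRl, hRH⟩ := h3
  haveI : Fact (Nat.Prime 2) := ⟨Nat.prime_two⟩
  have hp1 : IsPGroup 2 (P.subgroupOf S) := hPp.comap_of_injective S.subtype S.subtype_injective
  have hp2 : IsPGroup 2 (R.subgroupOf S) := hRp.comap_of_injective S.subtype S.subtype_injective
  obtain ⟨s, hs⟩ := MulAction.exists_smul_eq S (hp1.toSylow hPl) (hp2.toSylow hRl)
  have hs' : MulAut.conj s • P.subgroupOf S = R.subgroupOf S := by
    have := congrArg (fun Q : Sylow 2 S => (Q : Subgroup S)) hs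
    exact this
  have hPR : MulAut.conj (s : G) • P = R := by
    rw [conj_smul_subgroupOf hPS, subgroupOf_inj] at hs'
    rwa [inf_eq_left.mpr hRS, inf_eq_left.mpr (conj_smul_le_of_le hPS s)] at hs'
  refine c.conj_of_le (M := normalizer (R : Set G)) ?_ (K := MulAut.conj (s : G) • K) (hK.conj _) hH ?_ hRH |>.imp' (fun g => g * s) ?_
  · have hRb : R ≠ ⊥ := by
      rintro rfl
      rw [relIndex_bot_left] at hRl
      exact hRl h2
    have : Group.IsNilpotent R := hRp.isNilpotent
    exact c.norm_ne_top hRb inferInstance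
  · intro x hx
    rw [mem_cj] at hx
    have h3 := hPK hx
    rw [← hPR, mem_normalizer_conj_smul]
    exact h3
  · rintro g ⟨_, hg⟩
    rw [map_mul, mul_smul]
    exact hg

/-- if every Carter subgroup normalises a Sylow `2`-subgroup of `S`, they are conjugate -/
theorem cc_of_nTwo [S.Normal] (c : Ctx G S) (h2 : 2 ∣ Nat.card S) (h : ∀ K : Subgroup G, AS G S K → NTwo S K) :
    CC G := fun K H hK hH => conj_of_nTwo c h2 hK hH (h K (c.as hK)) (h H (c.as hH))

/-- `K ∩ S` a `2`-group -/
theorem DTwo.isPGroup (hd : DTwo S K) : IsPGroup 2 ↥(K ⊓ S) := by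
  rw [IsPGroup.iff_card]
  refine ⟨_, Nat.eq_prime_pow_of_unique_prime_dvd Nat.card_pos.ne' ?_⟩
  intro r hr hdv
  by_contra hne
  exact hd r hr hne hdv

/-- `K ∩ S` a `2`-group: `NTwo` (Lemma X) -/
theorem nTwo_of_dTwo (h : AS G S K) (hd : DTwo S K) : NTwo S K := by
  haveI : Fact (Nat.Prime 2) := ⟨Nat.prime_two⟩
  haveI := h.normal
  obtain ⟨P, hPS, hPp, hPl, hPK⟩ := lemma_x' fpf h.min S h.carter (by rw [normalizer_eq_top]; exact le_top) (l := 2) hd.isPGroup
  exact ⟨P, hPS, hPp, hPl, hPK⟩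

end

end Cfsg.Agent.H310.Car
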