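import Cfsg.Agent.H310.Car.OCFrame
import Cfsg.Agent.H507.GmnOrth

/-!
# Frames for isometries of odd prime order `p ∣ q² - 1` without fixed vectors, `q` even (helper310, for S3852)

* `exists_fr` : such an isometry has a frame;
* `artin` : the eigenvalues `t` satisfy the trace condition;
* `even_or` : `|C|` is even or `N(C)` is not solvable, `C` the centraliser in `Ω`.
-/

set_option autoImplicit false
set_option linter.unusedSectionVars false

namespace Cfsg.Agent.H310.OC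

open QuadraticMap Matrix Module Polynomial
open Cfsg.Agent.ClassicalGeometry.Reflection Cfsg.Agent.ClassicalGeometry.OrthCharTwo
  Cfsg.Agent.ClassicalGeometry.SpinorSign Cfsg.Agent.ClassicalGeometry.OmegaIndex
  Cfsg.Agent.ClassicalGeometry.OrthDickson
open Cfsg.Agent.H507.GmnOrth
open Cfsg.Agent.LieClassical.OrthCore hiding polar_self'
open Cfsg.Agent.LieClassical.OrthTrans Cfsg.Agent.LieClassical.OrthFinite

variable {ι : Type} [Fintype ι] [DecidableEq ι] {F : Type*} [Field F] {Q : QuadraticForm F (ι → F)}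

theorem exists_frame_sub [Fintype F] (h2 : (2 : F) = 0) {p : ℕ} (hp : p.Prime) (hp2 : p ≠ 2)
    (hq : p ∣ Fintype.card F ^ 2 - 1)
    {g : Cfsg.isometryGroup F (⇑Q)} (hg : g ^ p = 1) (n : ℕ) :
    ∀ U : Submodule F (ι → F), finrank F U = n → (∀ u ∈ U, act g u ∈ U) →
      (∀ x ∈ U, (∀ y ∈ U, polar Q x y = 0) → x = 0) → (∀ u ∈ U, act g u = u → u = 0) →
      ∃ (m : ℕ) (v : Fin m → ι → F) (t : Fin m → F), n = 2 * m ∧ (∀ i, v i ∈ U) ∧ (∀ i, Q (v i) = 1) ∧
        (∀ i, Eg g (t i) (v i)) ∧ (∀ i j, i ≠ j → polar Q (v i) (v j) = 0) ∧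
        (∀ i j, i ≠ j → polar Q (v i) (act g (v j)) = 0) ∧
        (∀ x ∈ U, ∃ a b : Fin m → F, x = ∑ i, (a i • v i + b i • act g (v i))) := by
  classical
  induction n using Nat.strong_induction_on with
  | _ n ih =>
  intro U hn hU hnd hfix
  by_cases hbot : U = ⊥
  · refine ⟨0, Fin.elim0, Fin.elim0, ?_, fun i => i.elim0, fun i => i.elim0, fun i => i.elim0, fun i => i.elim0,
      fun i => i.elim0, ?_⟩
    · rw [← hn, hbot, finrank_bot]
    · intro x hx
      rw [hbot, Submodule.mem_bot] at hx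
      exact ⟨Fin.elim0, Fin.elim0, by rw [hx]; simp⟩
  obtain ⟨w, hwU, hQw, t, ht⟩ := exists_eigen hp hq hg hU hnd hbot
  obtain ⟨c, hc⟩ : ∃ c : F, c ^ 2 = (Q w)⁻¹ := by
    obtain ⟨c, hc⟩ := FiniteField.isSquare_of_char_two (F := F) (CharP.ringChar_of_prime_eq_zero Nat.prime_two
      (by exact_mod_cast h2)) (Q w)⁻¹
    exact ⟨c, by rw [hc, pow_two]⟩
  obtain ⟨v, hv⟩ : ∃ v, v = c • w := ⟨_, rfl⟩
  have hQv : Q v = 1 := by
    rw [hv, QuadraticMap.map_smul, smul_eq_mul, ← pow_two, hc, inv_mul_cancel₀ hQw]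
  have hvU : v ∈ U := hv ▸ U.smul_mem c hwU
  have htv : act g v + act g⁻¹ v = t • v := by
    rw [hv, act_smul, act_smul, ← smul_add, ht, smul_comm]
  have e : Eg g t v := Eg.of hp hp2 hg hU hfix hvU (by rw [hQv]; exact one_ne_zero) htv
  have hcm := e.finrank_cmp hU hvU
  obtain ⟨m, v', t', h1, h3, h4, h5, h6, h7, h8⟩ := ih (finrank F (cmp g v U)) (by omega) (cmp g v U) rfl
    (e.cmp_inv hU) (e.cmp_nondeg hU hvU hnd) (fun u hu => hfix u (cmp_le hu))
  refine ⟨m + 1, Fin.cons v v', Fin.cons t t', by omega, ?_, ?_, ?_, ?_, ?_, ?_⟩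
  · intro i
    refine Fin.cases ?_ (fun i => ?_) i
    · exact hvU
    · rw [Fin.cons_succ]; exact cmp_le (h3 i)
  · intro i
    refine Fin.cases ?_ (fun i => ?_) i
    · exact hQv
    · rw [Fin.cons_succ]; exact h4 i
  · intro i
    refine Fin.cases ?_ (fun i => ?_) i
    · exact e
    · rw [Fin.cons_succ, Fin.cons_succ]; exact h5 i
  · intro i j
    refine Fin.cases ?_ (fun i => ?_) i <;> refine Fin.cases ?_ (fun j => ?_) j
    · intro h; exact absurd rfl h
    · intro _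
      rw [Fin.cons_zero, Fin.cons_succ]
      exact (h3 j).2.1
    · intro _
      rw [Fin.cons_zero, Fin.cons_succ, polar_comm]
      exact (h3 i).2.1
    · intro h
      rw [Fin.cons_succ, Fin.cons_succ]
      exact h6 i j fun h' => h (by rw [h'])
  · intro i j
    refine Fin.cases ?_ (fun i => ?_) i <;> refine Fin.cases ?_ (fun j => ?_) j
    · intro h; exact absurd rfl h
    · intro _
      rw [Fin.cons_zero, Fin.cons_succ]
      exact (e.cmp_inv hU _ (h3 j)).2.1
    · intro _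
      rw [Fin.cons_zero, Fin.cons_succ, polar_comm]
      exact (h3 i).2.2
    · intro h
      rw [Fin.cons_succ, Fin.cons_succ]
      exact h7 i j fun h' => h (by rw [h'])
  · intro x hx
    obtain ⟨a, b, hab⟩ := e.exists_sub hU hvU hx
    obtain ⟨a', b', hab'⟩ := h8 _ hab
    refine ⟨Fin.cons a a', Fin.cons b b', ?_⟩
    rw [Fin.sum_univ_succ]
    simp only [Fin.cons_zero, Fin.cons_succ]
    rw [← hab']
    abel

/-- **Existence of frames.** -/
theorem exists_fr [Fintype F] (h2 : (2 : F) = 0) {p : ℕ} (hp : p.Prime) (hp2 : p ≠ 2)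
    (hq : p ∣ Fintype.card F ^ 2 - 1) (hQ : (polarBilin Q).Nondegenerate)
    {g : Cfsg.isometryGroup F (⇑Q)} (hg : g ^ p = 1) (hfix : ∀ u, act g u = u → u = 0) :
    ∃ m : ℕ, Fintype.card ι = 2 * m ∧ Nonempty (Fr Q (isometryHom Q g) m) := by
  obtain ⟨m, v, t, h1, -, h4, h5, h6, h7, h8⟩ := exists_frame_sub h2 hp hp2 hq hg (finrank F (⊤ : Submodule F (ι → F)))
    ⊤ rfl (fun _ _ => trivial) (fun x _ hx => hQ.1 x fun y => hx y trivial) (fun u _ => hfix u)
  refine ⟨m, ?_, ⟨⟨v, t, h4, ?_, ?_, ?_, h6, h7, fun x => h8 x trivial⟩⟩⟩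
  · rw [← h1, finrank_top, finrank_fintype_fun_eq_card]
  · intro i h
    exact (h5 i).t1 (by rw [h, h2])
  · intro i
    have h9 := (h5 i).pol
    rw [h4, mul_one] at h9
    exact h9
  · intro i
    exact (h5 i).sq

/-- the sum of two elements in the same class modulo `℘(F)` -/
theorem artin_sum [Finite F] (h2 : (2 : F) = 0) {a b : F}
    (h : (∃ y : F, y ^ 2 + y = a) ↔ (∃ y : F, y ^ 2 + y = b)) : ∃ y : F, y ^ 2 + y = a + b := by
  let φ : F →+ F :=
    { toFun := fun y => y ^ 2 + y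
      map_zero' := by ring
      map_add' := fun x y => by linear_combination (x * y) * h2 }
  have hφ : ∀ y, φ y = y ^ 2 + y := fun _ => rfl
  have hk : Nat.card φ.ker = 2 := by
    rw [Nat.card_eq_two_iff]
    refine ⟨⟨0, φ.ker.zero_mem⟩, ⟨1, ?_⟩, ?_, ?_⟩
    · rw [AddMonoidHom.mem_ker, hφ, ← h2]; norm_num
    · intro h'
      exact zero_ne_one (congrArg Subtype.val h')
    · rw [Set.eq_univ_iff_forall]
      rintro ⟨y, hy⟩
      rw [AddMonoidHom.mem_ker, hφ] at hy
      have h3 : y * (y + 1) = 0 := by linear_combination hy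
      rcases mul_eq_zero.1 h3 with h4 | h4
      · left; exact Subtype.ext h4
      · right
        refine Subtype.ext ?_
        change y = 1
        linear_combination h4 - h2
  have h3 := φ.ker.card_mul_index
  have h4 := φ.range.card_mul_index
  rw [AddSubgroup.index_ker, hk, ← h4, mul_comm] at h3
  have h5 : φ.range.index = 2 := (Nat.eq_of_mul_eq_mul_left Nat.card_pos h3).symm
  exact (AddSubgroup.add_mem_iff_of_index_two h5).2 h

/-- the quadratic factor -/
theorem Fr.poly_dvd {V : Type*} [AddCommGroup V] [Module F V] {Q : QuadraticForm F V} (h2 : (2 : F) = 0)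
    {g : V ≃ₗ[F] V} (hgO : g ∈ O Q) {m : ℕ} (f : Fr Q g m) {p : ℕ} (hg : g ^ p = 1) (i : Fin m) :
    (X ^ 2 - C (f.t i) * X + 1 : F[X]) ∣ X ^ p - 1 := by
  obtain ⟨P, hP⟩ : ∃ P : F[X], P = X ^ 2 - C (f.t i) * X + 1 := ⟨_, rfl⟩
  rw [← hP]
  have hdeg : (X ^ 2 + (- C (f.t i) * X + 1) : F[X]).natDegree = 2 := by
    compute_degree!
  have hPd : P.natDegree = 2 := by
    have h3 : P = X ^ 2 + (- C (f.t i) * X + 1) := by rw [hP]; ring
    rw [h3, hdeg]
  have hPm : P.Monic := by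
    have h3 : P = X ^ 2 + (- C (f.t i) * X + C 1) := by rw [hP, C_1]; ring
    rw [h3]
    monicity!
  have hP1 : P ≠ 1 := by
    intro h
    rw [h, natDegree_one] at hPd
    exact absurd hPd (by norm_num)
  rw [← modByMonic_eq_zero_iff_dvd hPm]
  have hlt := natDegree_modByMonic_lt (X ^ p - 1 : F[X]) hPm hP1
  obtain ⟨a, b, hab⟩ := exists_eq_X_add_C_of_natDegree_le_one (p := (X ^ p - 1 : F[X]) %ₘ P) (by omega)
  let γ : Module.End F V := (g : V →ₗ[F] V)
  have hγ : ∀ x, γ x = g x := fun _ => rfl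
  have hγp : ∀ n x, (γ ^ n) x = (g ^ n) x := by
    intro n
    induction n with
    | zero => intro x; rfl
    | succ n ih => intro x; rw [pow_succ', pow_succ']; change γ ((γ ^ n) x) = g ((g ^ n) x); rw [ih, hγ]
  have hPv : aeval γ P (f.v i) = 0 := by
    rw [hP, map_add, map_sub, map_pow, map_mul, aeval_X, aeval_C, map_one]
    change (γ ^ 2) (f.v i) - f.t i • (γ (f.v i)) + f.v i = 0
    rw [hγp, pow_two]
    change g (g (f.v i)) - f.t i • g (f.v i) + f.v i = 0
    rw [f.eg]; abel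
  have hXv : aeval γ (X ^ p - 1 : F[X]) (f.v i) = 0 := by
    rw [map_sub, map_pow, aeval_X, map_one]
    change (γ ^ p) (f.v i) - f.v i = 0
    rw [hγp, hg]
    exact sub_self _
  have hRv : aeval γ ((X ^ p - 1 : F[X]) %ₘ P) (f.v i) = 0 := by
    have h3 := modByMonic_add_div (X ^ p - 1 : F[X]) P
    rw [← h3, mul_comm P, map_add, map_mul] at hXv
    change aeval γ ((X ^ p - 1 : F[X]) %ₘ P) (f.v i) + aeval γ ((X ^ p - 1 : F[X]) /ₘ P) (aeval γ P (f.v i)) = 0 at hXv
    rw [hPv, map_zero, add_zero] at hXv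
    exact hXv
  rw [hab, map_add, map_mul, aeval_C, aeval_C, aeval_X] at hRv
  have hRv : a • g (f.v i) + b • f.v i = 0 := hRv
  have ha : a = 0 := by
    have h3 := congrArg (polar Q (f.v i)) hRv
    rw [polar_add_right, polar_smul_right, polar_smul_right, f.pol, two_zero_polar h2, polar_zero_right, smul_zero,
      add_zero, smul_eq_mul] at h3
    exact (mul_eq_zero.1 h3).resolve_right (f.t0 i)
  have hb : b = 0 := by
    have h3 := congrArg (polar Q (g (f.v i))) hRv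
    rw [polar_add_right, polar_smul_right, polar_smul_right, f.pol', two_zero_polar h2, polar_zero_right, smul_zero,
      zero_add, smul_eq_mul] at h3
    exact (mul_eq_zero.1 h3).resolve_right (f.t0 i)
  rw [hab, ha, hb, C_0, zero_mul, add_zero]

theorem Fr.root_iff [Fintype F] {V : Type*} [AddCommGroup V] [Module F V] {Q : QuadraticForm F V} (h2 : (2 : F) = 0)
    {g : V ≃ₗ[F] V} (hgO : g ∈ O Q) {m : ℕ} (f : Fr Q g m) {p : ℕ} (hp : p.Prime) (hg : g ^ p = 1) (i : Fin m) :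
    (∃ y : F, y ^ 2 + y = ((f.t i)⁻¹) ^ 2) ↔ p ∣ Fintype.card F - 1 := by
  have hd := f.poly_dvd h2 hgO hg i
  have ht := f.t0 i
  have hroot : (∃ y : F, y ^ 2 + y = ((f.t i)⁻¹) ^ 2) ↔ ∃ ζ : F, ζ ^ 2 - f.t i * ζ + 1 = 0 := by
    constructor
    · rintro ⟨y, hy⟩
      refine ⟨f.t i * y, ?_⟩
      have h3 : (f.t i) ^ 2 * (y ^ 2 + y) = 1 := by
        rw [hy, ← mul_pow, mul_inv_cancel₀ ht, one_pow]
      linear_combination h3 + (1 - f.t i ^ 2 * y) * h2
    · rintro ⟨ζ, hζ⟩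
      refine ⟨ζ * (f.t i)⁻¹, ?_⟩
      have h3 : ζ = ζ * (f.t i)⁻¹ * f.t i := by rw [mul_assoc, inv_mul_cancel₀ ht, mul_one]
      have h4 : (ζ * (f.t i)⁻¹) ^ 2 + ζ * (f.t i)⁻¹ = (ζ ^ 2 + ζ * f.t i) * ((f.t i)⁻¹) ^ 2 := by
        have h5 : f.t i * ((f.t i)⁻¹) ^ 2 = (f.t i)⁻¹ := by
          rw [pow_two, ← mul_assoc, mul_inv_cancel₀ ht, one_mul]
        linear_combination (-ζ) * h5
      rw [h4]
      have h6 : ζ ^ 2 + ζ * f.t i = 1 := by linear_combination hζ + (ζ * f.t i - 1) * h2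
      rw [h6, one_mul]
  rw [hroot]
  constructor
  · rintro ⟨ζ, hζ⟩
    have h3 : ζ ^ p = 1 := by
      obtain ⟨R, hR⟩ := hd
      have h4 := congrArg (eval ζ) hR
      rw [eval_mul] at h4
      simp only [eval_sub, eval_pow, eval_X, eval_one, eval_add, eval_mul, eval_C] at h4
      rw [hζ, zero_mul, sub_eq_zero] at h4
      exact h4
    have h4 : ζ ≠ 0 := by
      rintro rfl
      rw [zero_pow hp.ne_zero] at h3
      exact zero_ne_one h3
    have h5 : ζ ≠ 1 := by
      rintro rfl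
      apply ht
      linear_combination h2 - hζ
    haveI : Fact p.Prime := ⟨hp⟩
    have h6 : orderOf ζ = p := orderOf_eq_prime h3 h5
    rw [← h6]
    exact orderOf_dvd_of_pow_eq_one (FiniteField.pow_card_sub_one_eq_one ζ h4)
  · intro hq
    have h1 : 1 < Fintype.card F := Fintype.one_lt_card
    have h3 : (X ^ 2 - C (f.t i) * X + 1 : F[X]) ∣ X ^ Fintype.card F - X := by
      have h4 : (X ^ p - 1 : F[X]) ∣ X ^ (Fintype.card F - 1) - 1 := by
        obtain ⟨c, hc⟩ := hq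
        rw [hc, pow_mul]
        exact sub_one_dvd_pow_sub_one _ _
      have h5 : (X ^ Fintype.card F - X : F[X]) = (X ^ (Fintype.card F - 1) - 1) * X := by
        rw [sub_mul, one_mul, ← pow_succ, Nat.sub_add_cancel h1.le]
      rw [h5]
      exact (hd.trans h4).mul_right _
    have h6 := (FiniteField.isSplittingField_sub F F).splits
    rw [Algebra.algebraMap_self, Polynomial.map_id] at h6
    have h7 := h6.of_dvd (FiniteField.X_pow_card_sub_X_ne_zero F h1) h3
    have hdeg : (X ^ 2 - C (f.t i) * X + 1 : F[X]).degree ≠ 0 := by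
      have h8 : (X ^ 2 + (- C (f.t i) * X + 1) : F[X]).degree = 2 := by
        compute_degree!
      have h9 : (X ^ 2 - C (f.t i) * X + 1 : F[X]) = X ^ 2 + (- C (f.t i) * X + 1) := by ring
      rw [h9, h8]
      decide
    obtain ⟨ζ, hζ⟩ := h7.exists_eval_eq_zero hdeg
    refine ⟨ζ, ?_⟩
    simpa only [eval_sub, eval_pow, eval_X, eval_one, eval_add, eval_mul, eval_C] using hζ

theorem Fr.artin [Fintype F] {V : Type*} [AddCommGroup V] [Module F V] {Q : QuadraticForm F V} (h2 : (2 : F) = 0)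
    {g : V ≃ₗ[F] V} (hgO : g ∈ O Q) {m : ℕ} (f : Fr Q g m) {p : ℕ} (hp : p.Prime) (hg : g ^ p = 1) (i j : Fin m) :
    ∃ y : F, y ^ 2 + y = ((f.t i)⁻¹) ^ 2 + ((f.t j)⁻¹) ^ 2 :=
  artin_sum h2 ((f.root_iff h2 hgO hp hg i).trans (f.root_iff h2 hgO hp hg j).symm)

open Subgroup in
/-- **`|C|` is even or `C` is solvable and `N(C)` is not solvable.** -/
theorem even_or [Fintype F] (h2 : (2 : F) = 0) {p : ℕ} (hp : p.Prime) (hp2 : p ≠ 2)
    (hq : p ∣ Fintype.card F ^ 2 - 1) (hQ : (polarBilin Q).Nondegenerate) (hcard : 10 ≤ Fintype.card ι)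
    {g : Cfsg.isometryGroup F (⇑Q)} (hg : g ^ p = 1) (hfix : ∀ u, act g u = u → u = 0) :
    2 ∣ Nat.card ↥(E Q ⊓ centralizer ({isometryHom Q g} : Set ((ι → F) ≃ₗ[F] (ι → F))) :
      Subgroup ((ι → F) ≃ₗ[F] (ι → F))) ∨
    (Group.IsSolvable ↥(E Q ⊓ centralizer ({isometryHom Q g} : Set ((ι → F) ≃ₗ[F] (ι → F))) :
      Subgroup ((ι → F) ≃ₗ[F] (ι → F))) ∧
    ¬ Group.IsSolvable ↥(E Q ⊓ normalizer ((E Q ⊓ centralizer ({isometryHom Q g} : Set ((ι → F) ≃ₗ[F] (ι → F))) :
      Subgroup ((ι → F) ≃ₗ[F] (ι → F))) : Set ((ι → F) ≃ₗ[F] (ι → F))) : Subgroup ((ι → F) ≃ₗ[F] (ι → F)))) := by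
  obtain ⟨m, hm, ⟨f⟩⟩ := exists_fr h2 hp hp2 hq hQ hg hfix
  have hgO : isometryHom Q g ∈ O Q := by
    rw [← isometryHom_range]; exact ⟨g, rfl⟩
  have hgp : (isometryHom Q g) ^ p = 1 := by rw [← map_pow, hg, map_one]
  have hG : Good Q := good_of_finite (nondeg_of_nondegenerate hQ) (by
    rw [finrank_fintype_fun_eq_card]; omega)
  haveI : Finite ((ι → F) ≃ₗ[F] (ι → F)) := Finite.of_injective (fun e => (e : (ι → F) → (ι → F)))
    (fun a b h => LinearEquiv.ext fun x => congrFun h x)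
  by_cases hinj : Function.Injective f.t
  · rcases Nat.even_or_odd (Nat.card ↥(E Q ⊓ centralizer ({isometryHom Q g} : Set ((ι → F) ≃ₗ[F] (ι → F))) :
      Subgroup ((ι → F) ≃ₗ[F] (ι → F)))) with h | h
    · exact Or.inl h.two_dvd
    · refine Or.inr ⟨?_, f.normalizer_not_solvable h2 hG hgO (by omega) hinj
        (f.artin h2 hgO hp hgp) h⟩
      refine Group.isSolvable_of_comm fun a b => Subtype.ext ?_
      exact f.cent_comm h2 hgO hinj (mem_centralizer_singleton_iff.1 a.2.2).symm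
        (mem_centralizer_singleton_iff.1 b.2.2).symm
  · left
    simp only [Function.Injective, not_forall] at hinj
    obtain ⟨i, j, hij, hne⟩ := hinj
    obtain ⟨s, hsE, hs2, hs1, hsg⟩ := exists_involution f h2 hgO hne hij
    have hsC : s ∈ E Q ⊓ centralizer ({isometryHom Q g} : Set ((ι → F) ≃ₗ[F] (ι → F))) :=
      ⟨hsE, mem_centralizer_singleton_iff.2 hsg.symm⟩
    have h3 : orderOf s = 2 := orderOf_eq_prime (by rw [pow_two]; exact hs2) hs1
    have h4 : orderOf (⟨s, hsC⟩ : ↥(E Q ⊓ centralizer ({isometryHom Q g} : Set ((ι → F) ≃ₗ[F] (ι → F))))) = 2 := by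
      rw [← h3]; exact (orderOf_coe _).symm
    rw [← h4]
    exact orderOf_dvd_natCard _

end Cfsg.Agent.H310.OC
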