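import Cfsg.Agent.LieClassical.OrthFinite

/-!
# Orthogonal groups in characteristic 2: semisimple isometries without fixed vectors (helper310, for S3852)

`Fr Q g m` : a frame of `V` (of dimension `2m`) for an isometry `g` with `g + g⁻¹` diagonalisable: orthogonal planes
`⟨v i, g (v i)⟩`.

* `exists_involution` : two equal eigenvalues of `g + g⁻¹`: `g` commutes with an involution of `E Q`;
* `normalizer_not_solvable` : distinct eigenvalues, `m ≥ 5`, `C = C_{E Q}(g)` of odd order: `N_{E Q}(C)` is not solvable.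
-/

set_option autoImplicit false

namespace Cfsg.Agent.H310.OC

open QuadraticMap Module Cfsg.Agent.LieClassical.OrthCore Cfsg.Agent.LieClassical.OrthTrans

universe u w

variable {F : Type u} {V : Type w} [Field F] [AddCommGroup V] [Module F V] {Q : QuadraticForm F V}

/-- a frame for `g` -/
structure Fr (Q : QuadraticForm F V) (g : V ≃ₗ[F] V) (m : ℕ) where
  v : Fin m → V
  t : Fin m → F
  Qv : ∀ i, Q (v i) = 1
  t0 : ∀ i, t i ≠ 0
  pol : ∀ i, polar Q (v i) (g (v i)) = t i
  eg : ∀ i, g (g (v i)) = t i • g (v i) - v i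
  o1 : ∀ i j, i ≠ j → polar Q (v i) (v j) = 0
  o2 : ∀ i j, i ≠ j → polar Q (v i) (g (v j)) = 0
  span : ∀ x, ∃ a b : Fin m → F, x = ∑ i, (a i • v i + b i • g (v i))

section Basic

variable {g : V ≃ₗ[F] V} {m : ℕ} (f : Fr Q g m)

theorem Fr.o3 (hg : g ∈ O Q) {i j : Fin m} (h : i ≠ j) : polar Q (g (f.v i)) (g (f.v j)) = 0 := by
  rw [polar_map hg, f.o1 i j h]

theorem Fr.o2' {i j : Fin m} (h : i ≠ j) : polar Q (g (f.v i)) (f.v j) = 0 := by
  rw [polar_comm, f.o2 j i h.symm]

theorem Fr.pol' (i : Fin m) : polar Q (g (f.v i)) (f.v i) = f.t i := by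
  rw [polar_comm, f.pol]

theorem two_zero_polar (h2 : (2 : F) = 0) (x : V) : polar Q x x = 0 := by
  rw [polar_self', h2, zero_mul]

theorem Fr.Qgv (hg : g ∈ O Q) (i : Fin m) : Q (g (f.v i)) = 1 := by
  rw [mem_O.1 hg, f.Qv]

theorem Fr.v_ne (i : Fin m) : f.v i ≠ 0 := by
  intro h
  have h1 := f.Qv i
  rw [h, QuadraticMap.map_zero] at h1
  exact zero_ne_one h1

/-- **Equal eigenvalues.** -/
theorem exists_involution (h2 : (2 : F) = 0) (hg : g ∈ O Q) {i j : Fin m} (hij : i ≠ j) (ht : f.t i = f.t j) :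
    ∃ s ∈ E Q, s * s = 1 ∧ s ≠ 1 ∧ g * s = s * g := by
  have hneg : ∀ x : V, -x = x := fun x => by
    have h3 : (2 : F) • x = 0 := by rw [h2, zero_smul]
    rw [two_smul] at h3
    exact neg_eq_of_add_eq_zero_left h3
  have hsub : ∀ x y : V, x - y = x + y := fun x y => by rw [sub_eq_add_neg, hneg]
  have hxx : ∀ x : V, x + x = 0 := fun x => by
    have h3 := sub_self x
    rwa [hsub] at h3
  obtain ⟨u, hu⟩ : ∃ u, u = f.v i + f.v j := ⟨_, rfl⟩
  have hgu : g u = g (f.v i) + g (f.v j) := by rw [hu, map_add]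
  have hQu : Q u = 0 := by
    rw [hu, Q_add, f.Qv, f.Qv, f.o1 i j hij, add_zero]
    rw [← h2]; norm_num
  have hp : polar Q u (g u) = 0 := by
    rw [hgu, hu, polar_add_left, polar_add_right, polar_add_right, f.pol, f.o2 i j hij, f.o2 j i hij.symm, f.pol, ht,
      add_zero, zero_add, ← two_mul, h2, zero_mul]
  have hQgu : Q (g u) = 0 := by rw [mem_O.1 hg, hQu]
  have hggu : g (g u) = f.t i • g u + u := by
    rw [hgu, map_add, f.eg, f.eg, ← ht, hsub, hsub, hu]
    simp only [smul_add]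
    abel
  have hgp : polar Q (g u) (g (g u)) = 0 := by rw [polar_map hg, hp]
  refine ⟨siegel Q u (g u) hQu hp, siegel_mem_E hQu hp, ?_, ?_, ?_⟩
  · rw [siegel_mul hQu hp hp (by rw [hxx, polar_zero_right])]
    ext x
    rw [siegel_apply, hxx, smul_zero, polar_zero_left, QuadraticMap.map_zero]
    simp
  · intro h
    have h3 : siegel Q u (g u) hQu hp (f.v i) = f.v i := by rw [h]; rfl
    rw [siegel_apply, hQgu, zero_mul, zero_smul, sub_zero] at h3
    have h4 : polar Q u (f.v i) = 0 := by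
      rw [hu, polar_add_left, two_zero_polar h2, f.o1 j i hij.symm, add_zero]
    have h5 : polar Q (g u) (f.v i) = f.t i := by
      rw [hgu, polar_add_left, f.pol', f.o2' hij.symm, add_zero]
    rw [h4, h5, zero_smul, add_zero] at h3
    have h6 : f.t i • u = 0 := by
      have h7 := congrArg (fun y => f.v i - y) h3
      simpa using h7
    rcases smul_eq_zero.1 h6 with h7 | h7
    · exact f.t0 i h7
    · have h8 : polar Q u (g (f.v i)) = f.t i := by
        rw [hu, polar_add_left, f.pol, f.o2 j i hij.symm, add_zero]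
      rw [h7, polar_zero_left] at h8
      exact f.t0 i h8.symm
  · have h3 := siegel_conj hg hQu hp hQgu hgp
    have h4 : siegel Q (g u) (g (g u)) hQgu hgp = siegel Q u (g u) hQu hp := by
      ext x
      have h5 : Q (g (g u)) = 0 := by rw [mem_O.1 hg, hQgu]
      rw [siegel_apply, siegel_apply, h5, hQgu, hggu, polar_add_left, polar_smul_left]
      simp only [zero_mul, zero_smul, add_zero, hsub, smul_add, smul_smul, add_smul, smul_eq_mul]
      have h6 : (polar Q (g u) x * f.t i) • g u + (f.t i * polar Q (g u) x) • g u = 0 := by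
        rw [mul_comm, hxx]
      calc x + ((polar Q (g u) x * f.t i) • g u + polar Q (g u) x • u) +
            ((f.t i * polar Q (g u) x) • g u + polar Q u x • g u)
          = x + ((polar Q (g u) x * f.t i) • g u + (f.t i * polar Q (g u) x) • g u) +
            (polar Q (g u) x • u + polar Q u x • g u) := by abel
        _ = x + polar Q u x • g u + polar Q (g u) x • u := by rw [h6]; abel
    rw [h4] at h3
    rw [mul_inv_eq_iff_eq_mul] at h3
    exact h3

/-- the plane -/
def Fr.P (i : Fin m) : Submodule F V := Submodule.span F {f.v i, g (f.v i)}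

theorem Fr.mem_P {i : Fin m} {x : V} : x ∈ f.P i ↔ ∃ a b : F, a • f.v i + b • g (f.v i) = x :=
  Submodule.mem_span_pair

theorem Fr.v_mem (i : Fin m) : f.v i ∈ f.P i := Submodule.subset_span (Set.mem_insert _ _)

theorem Fr.g_mem {i : Fin m} {x : V} (hx : x ∈ f.P i) : g x ∈ f.P i := by
  obtain ⟨a, b, rfl⟩ := f.mem_P.1 hx
  refine f.mem_P.2 ⟨-b, a + b * f.t i, ?_⟩
  rw [map_add, map_smul, map_smul, f.eg]
  module

theorem Fr.gg {i : Fin m} {x : V} (hx : x ∈ f.P i) : g (g x) = f.t i • g x - x := by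
  obtain ⟨a, b, rfl⟩ := f.mem_P.1 hx
  rw [map_add, map_add, map_smul, map_smul, map_smul, map_smul, f.eg, map_sub, map_smul, f.eg]
  module

/-- coordinates -/
theorem Fr.polar_sum_gv (h2 : (2 : F) = 0) (hg : g ∈ O Q) (a b : Fin m → F) (i : Fin m) :
    polar Q (∑ j, (a j • f.v j + b j • g (f.v j))) (g (f.v i)) = a i * f.t i := by
  rw [QuadraticMap.polar_comm, ← polarBilin_apply_apply, map_sum, Finset.sum_eq_single i]
  · rw [polarBilin_apply_apply, polar_add_right, polar_smul_right, polar_smul_right, f.pol', two_zero_polar h2,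
      smul_zero, add_zero, smul_eq_mul]
  · intro j _ hj
    rw [polarBilin_apply_apply, polar_add_right, polar_smul_right, polar_smul_right, f.o2' hj.symm,
      f.o3 hg hj.symm, smul_zero, smul_zero, add_zero]
  · intro h; exact absurd (Finset.mem_univ _) h

theorem Fr.polar_sum_v (h2 : (2 : F) = 0) (a b : Fin m → F) (i : Fin m) :
    polar Q (∑ j, (a j • f.v j + b j • g (f.v j))) (f.v i) = b i * f.t i := by
  rw [QuadraticMap.polar_comm, ← polarBilin_apply_apply, map_sum, Finset.sum_eq_single i]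
  · rw [polarBilin_apply_apply, polar_add_right, polar_smul_right, polar_smul_right, f.pol, two_zero_polar h2,
      smul_zero, zero_add, smul_eq_mul]
  · intro j _ hj
    rw [polarBilin_apply_apply, polar_add_right, polar_smul_right, polar_smul_right, f.o1 i j hj.symm,
      f.o2 i j hj.symm, smul_zero, smul_zero, add_zero]
  · intro h; exact absurd (Finset.mem_univ _) h

/-- **The plane is an eigenspace.** -/
theorem Fr.mem_P_of (h2 : (2 : F) = 0) (hg : g ∈ O Q) (hinj : Function.Injective f.t) {i : Fin m} {x : V}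
    (hx : g (g x) = f.t i • g x - x) : x ∈ f.P i := by
  have key : ∀ z : V, polar Q x (g (g z)) + polar Q x z = f.t i * polar Q x (g z) := by
    intro z
    have h1 : polar Q (g (g x)) (g (g z)) = polar Q x z := by rw [polar_map hg, polar_map hg]
    rw [hx, polar_sub_left, polar_smul_left, polar_map hg, smul_eq_mul] at h1
    linear_combination -h1 - 2 * h2 * 0 + (polar Q x (g (g z))) * h2 * 0 + (polar Q x z) * 0
  have hj : ∀ j, j ≠ i → ∀ z ∈ f.P j, polar Q x (g z) = 0 := by
    intro j hji z hz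
    have h1 := key z
    rw [f.gg hz, polar_sub_right, polar_smul_right, smul_eq_mul, sub_add_cancel] at h1
    have h3 : (f.t j - f.t i) * polar Q x (g z) = 0 := by rw [sub_mul, h1, sub_self]
    exact (mul_eq_zero.1 h3).resolve_left (sub_ne_zero.2 fun h => hji (hinj h))
  have hj' : ∀ j, j ≠ i → polar Q x (f.v j) = 0 := by
    intro j hji
    have h1 := hj j hji (f.v j) (f.v_mem j)
    have h3 := hj j hji (g (f.v j)) (f.g_mem (f.v_mem j))
    rw [f.eg, polar_sub_right, polar_smul_right, h1, smul_zero, zero_sub, neg_eq_zero] at h3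
    exact h3
  obtain ⟨a, b, hab⟩ := f.span x
  rw [hab]
  refine Submodule.sum_mem _ fun j _ => ?_
  by_cases hji : j = i
  · subst hji
    exact f.mem_P.2 ⟨_, _, rfl⟩
  · have h1 : a j * f.t j = 0 := by
      rw [← f.polar_sum_gv h2 hg a b j, ← hab]
      exact hj j hji _ (f.v_mem j)
    have h3 : b j * f.t j = 0 := by
      rw [← f.polar_sum_v h2 a b j, ← hab]
      exact hj' j hji
    rw [(mul_eq_zero.1 h1).resolve_right (f.t0 j), (mul_eq_zero.1 h3).resolve_right (f.t0 j), zero_smul, zero_smul,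
      add_zero]
    exact Submodule.zero_mem _

/-- **The plane lemma.** -/
theorem Fr.plane_comm (h2 : (2 : F) = 0) (hg : g ∈ O Q) {i : Fin m} {k : V ≃ₗ[F] V} (hk : k ∈ O Q)
    (hP : ∀ x ∈ f.P i, k x ∈ f.P i) {N : ℕ} (hN : Odd N) (hkN : k ^ N = 1) :
    ∀ x ∈ f.P i, k (g x) = g (k x) := by
  have hadd : ∀ x : F, x + x = 0 := fun x => by rw [← two_mul, h2, zero_mul]
  have hQ : ∀ a b : F, Q (a • f.v i + b • g (f.v i)) = a ^ 2 + a * b * f.t i + b ^ 2 := by
    intro a b
    rw [Q_add, QuadraticMap.map_smul, QuadraticMap.map_smul, f.Qv, f.Qgv hg, polar_smul_left, polar_smul_right, f.pol]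
    simp only [smul_eq_mul]
    ring
  have hB : ∀ a b c d : F, polar Q (a • f.v i + b • g (f.v i)) (c • f.v i + d • g (f.v i)) =
      (a * d + b * c) * f.t i := by
    intro a b c d
    rw [polar_add_left, polar_smul_left, polar_smul_left, polar_add_right, polar_add_right, polar_smul_right,
      polar_smul_right, polar_smul_right, polar_smul_right, two_zero_polar h2, two_zero_polar h2, f.pol, f.pol']
    simp only [smul_eq_mul]
    ring
  obtain ⟨a, b, hab⟩ := f.mem_P.1 (hP _ (f.v_mem i))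
  obtain ⟨c, d, hcd⟩ := f.mem_P.1 (hP _ (f.g_mem (f.v_mem i)))
  have q1 : a ^ 2 + a * b * f.t i + b ^ 2 = 1 := by rw [← hQ, hab, mem_O.1 hk, f.Qv]
  have q2 : c ^ 2 + c * d * f.t i + d ^ 2 = 1 := by rw [← hQ, hcd, mem_O.1 hk, f.Qgv hg]
  have q3 : a * d + b * c = 1 := by
    have h3 : (a * d + b * c) * f.t i = f.t i := by rw [← hB, hab, hcd, polar_map hk, f.pol]
    exact mul_right_cancel₀ (f.t0 i) (by rw [h3, one_mul])
  obtain ⟨t, ht⟩ : ∃ t, t = f.t i := ⟨_, rfl⟩
  rw [← ht] at q1 q2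
  obtain ⟨l, hl⟩ : ∃ l, l = c * (a + b * t) + d * b := ⟨_, rfl⟩
  have e1 : c = b + l * a := by
    rw [hl]; grind
  have e2 : d = a + b * t + l * b := by
    rw [hl]; grind
  have e3 : l * (l + t) = 0 := by
    grind
  rcases mul_eq_zero.1 e3 with h0 | h0
  · have hkgv : k (g (f.v i)) = g (k (f.v i)) := by
      rw [← hab, ← hcd, e1, e2, h0, map_add, map_smul, map_smul, f.eg, ← ht]
      have hb : b = -b := eq_neg_of_add_eq_zero_left (hadd b)
      nth_rewrite 1 [hb]
      module
    intro x hx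
    obtain ⟨α, β, rfl⟩ := f.mem_P.1 hx
    have h3 := f.gg (hP _ (f.v_mem i))
    simp only [map_add, map_smul, map_sub, hkgv, h3, f.eg]
  · exfalso
    have hkgv : k (g (f.v i)) = t • k (f.v i) - g (k (f.v i)) := by
      have hl' : l = t := by grind
      rw [← hab, ← hcd, e1, e2, hl', map_add, map_smul, map_smul, f.eg, ← ht]
      have hbt : (t * b) • g (f.v i) + (t * b) • g (f.v i) = 0 := by rw [← add_smul, hadd, zero_smul]
      have haa : a • g (f.v i) + a • g (f.v i) = 0 := by rw [← add_smul, hadd, zero_smul]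
      have h5 : (b + t * a) • f.v i + (a + b * t + t * b) • g (f.v i) =
          (b + t * a) • f.v i + a • g (f.v i) + ((t * b) • g (f.v i) + (t * b) • g (f.v i)) := by module
      have h6 : t • (a • f.v i + b • g (f.v i)) - (a • g (f.v i) + b • (t • g (f.v i) - f.v i)) =
          (b + t * a) • f.v i + a • g (f.v i) - (a • g (f.v i) + a • g (f.v i)) := by module
      rw [h5, h6, hbt, haa, add_zero, sub_zero]
    have hk1 : ∀ x ∈ f.P i, k (g x) = t • k x - g (k x) := by
      intro x hx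
      obtain ⟨α, β, rfl⟩ := f.mem_P.1 hx
      have h3 := f.gg (hP _ (f.v_mem i))
      simp only [map_add, map_smul, map_sub, hkgv, h3, f.eg, ← ht]
      module
    have hk2 : ∀ n : ℕ, ∀ x ∈ f.P i, (Even n → (k ^ n) (g x) = g ((k ^ n) x)) ∧
        (Odd n → (k ^ n) (g x) = t • (k ^ n) x - g ((k ^ n) x)) := by
      intro n
      induction n with
      | zero =>
        intro x _
        refine ⟨fun _ => ?_, fun h => ?_⟩
        · rw [pow_zero]; rfl
        · exact absurd h (by decide)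
      | succ n ih =>
        intro x hx
        have h3 := ih (k x) (hP x hx)
        have h4 : ∀ y : V, (k ^ (n + 1)) y = (k ^ n) (k y) := fun y => by rw [pow_succ]; rfl
        rw [h4, h4, hk1 x hx, map_sub, map_smul]
        constructor
        · intro h
          have h5 : Odd n := by
            rcases Nat.even_or_odd n with h6 | h6
            · exact absurd h (Nat.not_even_iff_odd.2 h6.add_one)
            · exact h6
          rw [h3.2 h5]
          abel
        · intro h
          have h5 : Even n := by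
            rcases Nat.even_or_odd n with h6 | h6
            · exact h6
            · exact absurd h (Nat.not_odd_iff_even.2 h6.add_one)
          rw [h3.1 h5]
    have h3 := (hk2 N (f.v i) (f.v_mem i)).2 hN
    rw [hkN] at h3
    have h4 : g (f.v i) = t • f.v i - g (f.v i) := h3
    have h5 : polar Q (g (f.v i)) (g (f.v i)) = polar Q (t • f.v i - g (f.v i)) (g (f.v i)) := by rw [← h4]
    rw [two_zero_polar h2, polar_sub_left, polar_smul_left, two_zero_polar h2, f.pol, sub_zero, smul_eq_mul, ← ht] at h5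
    exact f.t0 i (ht ▸ mul_self_eq_zero.1 h5.symm)

end Basic

section Perm

theorem Q_sum {ι : Type*} (s : Finset ι) (x : ι → V) (h : ∀ i j, i ≠ j → polar Q (x i) (x j) = 0) :
    Q (∑ i ∈ s, x i) = ∑ i ∈ s, Q (x i) := by
  classical
  induction s using Finset.induction_on with
  | empty => rw [Finset.sum_empty, Finset.sum_empty, QuadraticMap.map_zero]
  | insert a s ha ih =>
    have h1 : polar Q (x a) (∑ i ∈ s, x i) = 0 := by
      rw [← polarBilin_apply_apply, map_sum]
      refine Finset.sum_eq_zero fun j hj => ?_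
      exact h a j fun h => ha (h ▸ hj)
    rw [Finset.sum_insert ha, Finset.sum_insert ha, Q_add, ih, h1, add_zero]

/-- **Permutations of isometric planes.** -/
theorem exists_perm (h2 : (2 : F) = 0) {m : ℕ} {e f : Fin m → V} {τ : F} (hτ : τ ≠ 0) (he : ∀ i, Q (e i) = 1)
    (hf : ∀ i, Q (f i) = 1) (hef : ∀ i, polar Q (e i) (f i) = τ) (o1 : ∀ i j, i ≠ j → polar Q (e i) (e j) = 0)
    (o2 : ∀ i j, i ≠ j → polar Q (e i) (f j) = 0) (o3 : ∀ i j, i ≠ j → polar Q (f i) (f j) = 0)
    (span : ∀ x, ∃ a b : Fin m → F, x = ∑ i, (a i • e i + b i • f i)) :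
    ∃ P : Equiv.Perm (Fin m) →* (V ≃ₗ[F] V), (∀ σ, P σ ∈ O Q) ∧ (∀ σ i, P σ (e i) = e (σ i)) ∧
      (∀ σ i, P σ (f i) = f (σ i)) ∧ Function.Injective P := by
  classical
  let D0 : (Fin m → F × F) →ₗ[F] V :=
    { toFun := fun a => ∑ i, ((a i).1 • e i + (a i).2 • f i)
      map_add' := fun a b => by
        rw [← Finset.sum_add_distrib]
        refine Finset.sum_congr rfl fun i _ => ?_
        simp only [Pi.add_apply, Prod.fst_add, Prod.snd_add]
        module
      map_smul' := fun c a => by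
        rw [RingHom.id_apply, Finset.smul_sum]
        refine Finset.sum_congr rfl fun i _ => ?_
        simp only [Pi.smul_apply, Prod.smul_fst, Prod.smul_snd, smul_eq_mul]
        module }
  have hD0 : ∀ a, D0 a = ∑ i, ((a i).1 • e i + (a i).2 • f i) := fun _ => rfl
  have hsurj : Function.Surjective D0 := by
    intro x
    obtain ⟨a, b, hab⟩ := span x
    exact ⟨fun i => (a i, b i), hab.symm⟩
  have c1 : ∀ a i, polar Q (f i) (D0 a) = (a i).1 * τ := by
    intro a i
    rw [hD0, ← polarBilin_apply_apply, map_sum, Finset.sum_eq_single i]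
    · rw [polarBilin_apply_apply, polar_add_right, polar_smul_right, polar_smul_right, polar_comm _ (f i) (e i), hef,
        two_zero_polar h2, smul_zero, add_zero, smul_eq_mul]
    · intro j _ hj
      rw [polarBilin_apply_apply, polar_add_right, polar_smul_right, polar_smul_right, polar_comm _ (f i) (e j),
        o2 j i hj, o3 i j hj.symm, smul_zero, smul_zero, add_zero]
    · intro h; exact absurd (Finset.mem_univ _) h
  have c2 : ∀ a i, polar Q (e i) (D0 a) = (a i).2 * τ := by
    intro a i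
    rw [hD0, ← polarBilin_apply_apply, map_sum, Finset.sum_eq_single i]
    · rw [polarBilin_apply_apply, polar_add_right, polar_smul_right, polar_smul_right, hef,
        two_zero_polar h2, smul_zero, zero_add, smul_eq_mul]
    · intro j _ hj
      rw [polarBilin_apply_apply, polar_add_right, polar_smul_right, polar_smul_right, o1 i j hj.symm,
        o2 i j hj.symm, smul_zero, smul_zero, add_zero]
    · intro h; exact absurd (Finset.mem_univ _) h
  have hinj : Function.Injective D0 := by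
    intro a b hab
    funext i
    refine Prod.ext ?_ ?_
    · exact mul_right_cancel₀ hτ (by rw [← c1, ← c1, hab])
    · exact mul_right_cancel₀ hτ (by rw [← c2, ← c2, hab])
  let D : (Fin m → F × F) ≃ₗ[F] V := LinearEquiv.ofBijective D0 ⟨hinj, hsurj⟩
  have hD : ∀ a, D a = D0 a := fun _ => rfl
  have hQD : ∀ a, Q (D a) = ∑ i, ((a i).1 ^ 2 + τ * (a i).1 * (a i).2 + (a i).2 ^ 2) := by
    intro a
    rw [hD, hD0, Q_sum]
    · refine Finset.sum_congr rfl fun i _ => ?_
      rw [Q_add, QuadraticMap.map_smul, QuadraticMap.map_smul, he, hf, polar_smul_left, polar_smul_right, hef]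
      simp only [smul_eq_mul]
      ring
    · intro i j hij
      rw [polar_add_left, polar_smul_left, polar_smul_left, polar_add_right, polar_add_right, polar_smul_right,
        polar_smul_right, polar_smul_right, polar_smul_right, o1 i j hij, o2 i j hij, o3 i j hij,
        polar_comm _ (f i) (e j), o2 j i hij.symm]
      simp
  let R : Equiv.Perm (Fin m) → ((Fin m → F × F) ≃ₗ[F] (Fin m → F × F)) := fun σ =>
    LinearEquiv.funCongrLeft F (F × F) σ⁻¹
  have hR : ∀ σ a i, R σ a i = a (σ⁻¹ i) := fun _ _ _ => rfl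
  let P : Equiv.Perm (Fin m) →* (V ≃ₗ[F] V) :=
    { toFun := fun σ => D.symm.trans ((R σ).trans D)
      map_one' := by
        ext x
        change D (R 1 (D.symm x)) = x
        have h3 : R 1 (D.symm x) = D.symm x := by
          funext i; rw [hR]; simp
        rw [h3, LinearEquiv.apply_symm_apply]
      map_mul' := fun σ ρ => by
        ext x
        change D (R (σ * ρ) (D.symm x)) = D (R σ (D.symm (D (R ρ (D.symm x)))))
        rw [LinearEquiv.symm_apply_apply]
        congr 1 }
  have hP : ∀ σ a, P σ (D a) = D (R σ a) := by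
    intro σ a
    change D (R σ (D.symm (D a))) = _
    rw [LinearEquiv.symm_apply_apply]
  have he' : ∀ i, D (Pi.single i (1, 0)) = e i := by
    intro i
    rw [hD, hD0, Finset.sum_eq_single i]
    · simp
    · intro j _ hj
      rw [Pi.single_eq_of_ne hj]
      simp
    · intro h; exact absurd (Finset.mem_univ _) h
  have hf' : ∀ i, D (Pi.single i (0, 1)) = f i := by
    intro i
    rw [hD, hD0, Finset.sum_eq_single i]
    · simp
    · intro j _ hj
      rw [Pi.single_eq_of_ne hj]
      simp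
    · intro h; exact absurd (Finset.mem_univ _) h
  have hRs : ∀ σ i (c : F × F), R σ (Pi.single i c) = Pi.single (σ i) c := by
    intro σ i c
    funext j
    rw [hR]
    by_cases h : j = σ i
    · subst h
      rw [show σ⁻¹ (σ i) = i from σ.symm_apply_apply i, Pi.single_eq_same, Pi.single_eq_same]
    · rw [Pi.single_eq_of_ne h, Pi.single_eq_of_ne]
      intro h'
      apply h
      rw [← h', show σ (σ⁻¹ j) = j from σ.apply_symm_apply j]
  have hPe : ∀ σ i, P σ (e i) = e (σ i) := by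
    intro σ i
    rw [← he', hP, hRs, he']
  refine ⟨P, ?_, hPe, ?_, ?_⟩
  · intro σ x
    obtain ⟨a, rfl⟩ := D.surjective x
    rw [hP, hQD, hQD]
    have h3 := Equiv.sum_comp (σ⁻¹) fun i => ((a i).1 ^ 2 + τ * (a i).1 * (a i).2 + (a i).2 ^ 2)
    rw [← h3]
    exact Finset.sum_congr rfl fun i _ => by rw [hR]
  · intro σ i
    rw [← hf', hP, hRs, hf']
  · rw [injective_iff_map_eq_one]
    intro σ hσ
    ext1 i
    by_contra hne
    have hne : σ i ≠ i := hne
    have h3 : e (σ i) = e i := by rw [← hPe, hσ]; rfl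
    have h4 := hef i
    rw [← h3, o2 _ _ hne] at h4
    exact hτ h4.symm

end Perm

section Main

open Subgroup

variable {g : V ≃ₗ[F] V} {m : ℕ} (f : Fr Q g m)

/-- a normalised frame gives permutations acting on the planes -/
theorem Fr.exists_perm_planes (h2 : (2 : F) = 0) (hg : g ∈ O Q) (hm : 0 < m)
    (hy : ∀ i j, ∃ y : F, y ^ 2 + y = ((f.t i)⁻¹) ^ 2 + ((f.t j)⁻¹) ^ 2) :
    ∃ P : Equiv.Perm (Fin m) →* (V ≃ₗ[F] V), (∀ σ, P σ ∈ O Q) ∧ (∀ σ i, ∀ x ∈ f.P i, P σ x ∈ f.P (σ i)) ∧
      Function.Injective P := by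
  obtain ⟨τ, hτ⟩ : ∃ τ, τ = f.t ⟨0, hm⟩ := ⟨_, rfl⟩
  have hτ0 : τ ≠ 0 := hτ ▸ f.t0 _
  have hy' : ∀ i, ∃ y : F, y ^ 2 + y = (τ⁻¹) ^ 2 + ((f.t i)⁻¹) ^ 2 := fun i => by rw [hτ]; exact hy _ i
  choose y hy' using hy'
  have hβ : ∀ i, τ * (f.t i)⁻¹ ≠ 0 := fun i => mul_ne_zero hτ0 (inv_ne_zero (f.t0 i))
  obtain ⟨e', he'⟩ : ∃ e' : Fin m → V, ∀ i, e' i = (τ * y i) • f.v i + (τ * (f.t i)⁻¹) • g (f.v i) := ⟨_, fun _ => rfl⟩
  have hv : ∀ i, g (f.v i) = (τ * (f.t i)⁻¹)⁻¹ • (e' i - (τ * y i) • f.v i) := by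
    intro i
    rw [he', add_sub_cancel_left, smul_smul, inv_mul_cancel₀ (hβ i), one_smul]
  obtain ⟨P, h1, h3, h4, h5⟩ : ∃ P : Equiv.Perm (Fin m) →* (V ≃ₗ[F] V), (∀ σ, P σ ∈ O Q) ∧
      (∀ σ i, P σ (f.v i) = f.v (σ i)) ∧ (∀ σ i, P σ (e' i) = e' (σ i)) ∧ Function.Injective P := by
    refine exists_perm (Q := Q) h2 (e := f.v) (f := e') (τ := τ) hτ0 f.Qv ?_ ?_ f.o1 ?_ ?_ ?_
    · intro i
      have ht := f.t0 i
      rw [he', Q_add, QuadraticMap.map_smul, QuadraticMap.map_smul, f.Qv, f.Qgv hg, polar_smul_left, polar_smul_right,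
        f.pol]
      simp only [smul_eq_mul]
      have h6 := hy' i
      have h7 : τ * y i * (τ * y i) * 1 + τ * (f.t i)⁻¹ * (τ * (f.t i)⁻¹) * 1 + τ * y i * (τ * (f.t i)⁻¹ * f.t i) =
          τ ^ 2 * (y i ^ 2 + y i) + τ ^ 2 * ((f.t i)⁻¹) ^ 2 := by
        rw [mul_assoc τ (f.t i)⁻¹ (f.t i), inv_mul_cancel₀ ht]
        ring
      rw [h7, h6]
      have h8 : τ ^ 2 * (τ⁻¹) ^ 2 = 1 := by rw [← mul_pow, mul_inv_cancel₀ hτ0, one_pow]
      linear_combination h8 + τ ^ 2 * (f.t i)⁻¹ ^ 2 * h2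
    · intro i
      rw [he', polar_add_right, polar_smul_right, polar_smul_right, two_zero_polar h2, f.pol, smul_zero, zero_add,
        smul_eq_mul, mul_assoc, inv_mul_cancel₀ (f.t0 i), mul_one]
    · intro i j hij
      rw [he', polar_add_right, polar_smul_right, polar_smul_right, f.o1 i j hij, f.o2 i j hij, smul_zero, smul_zero,
        add_zero]
    · intro i j hij
      rw [he', he', polar_add_left, polar_smul_left, polar_smul_left, polar_add_right, polar_add_right,
        polar_smul_right, polar_smul_right, polar_smul_right, polar_smul_right, f.o1 i j hij, f.o2 i j hij,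
        f.o2' hij, f.o3 hg hij]
      simp
    · intro x
      obtain ⟨a, b, hab⟩ := f.span x
      refine ⟨fun i => a i - b i * (τ * (f.t i)⁻¹)⁻¹ * (τ * y i), fun i => b i * (τ * (f.t i)⁻¹)⁻¹, ?_⟩
      rw [hab]
      refine Finset.sum_congr rfl fun i _ => ?_
      rw [he', smul_add, smul_smul, smul_smul, mul_assoc (b i) _ (τ * (f.t i)⁻¹), inv_mul_cancel₀ (hβ i), mul_one]
      module
  refine ⟨P, h1, ?_, h5⟩
  intro σ i x hx
  obtain ⟨a, b, rfl⟩ := f.mem_P.1 hx
  have h6 : e' (σ i) ∈ f.P (σ i) := by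
    rw [he']
    exact Submodule.add_mem _ (Submodule.smul_mem _ _ (f.v_mem _)) (Submodule.smul_mem _ _ (f.g_mem (f.v_mem _)))
  rw [hv i, map_add, map_smul, map_smul, map_smul, map_sub, map_smul, h3, h4]
  exact Submodule.add_mem _ (Submodule.smul_mem _ _ (f.v_mem _)) (Submodule.smul_mem _ _ (Submodule.smul_mem _ _
    (Submodule.sub_mem _ h6 (Submodule.smul_mem _ _ (f.v_mem _)))))

/-- **Distinct eigenvalues: the normaliser of the centraliser is not solvable.** -/
theorem Fr.normalizer_not_solvable (h2 : (2 : F) = 0) (hG : Good Q) (hg : g ∈ O Q) (hm : 5 ≤ m)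
    (hinj : Function.Injective f.t)
    (hy : ∀ i j, ∃ y : F, y ^ 2 + y = ((f.t i)⁻¹) ^ 2 + ((f.t j)⁻¹) ^ 2)
    (hodd : Odd (Nat.card ↥(E Q ⊓ centralizer ({g} : Set (V ≃ₗ[F] V)) : Subgroup (V ≃ₗ[F] V)))) :
    ¬ Group.IsSolvable ↥(E Q ⊓ normalizer ((E Q ⊓ centralizer ({g} : Set (V ≃ₗ[F] V)) : Subgroup (V ≃ₗ[F] V)) :
      Set (V ≃ₗ[F] V))) := by
  obtain ⟨P, hP1, hP2, hP3⟩ := f.exists_perm_planes h2 hg (by omega) hy
  obtain ⟨C, hC⟩ : ∃ C : Subgroup (V ≃ₗ[F] V), C = E Q ⊓ centralizer {g} := ⟨_, rfl⟩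
  have hCm : ∀ h, h ∈ C ↔ h ∈ E Q ∧ g * h = h * g := by
    intro h
    rw [hC, mem_inf, mem_centralizer_singleton_iff, eq_comm (a := g * h)]
  rw [← hC] at hodd ⊢
  have hcp : ∀ h ∈ C, ∀ x, g (h x) = h (g x) := by
    intro h hh x
    have h3 := ((hCm h).1 hh).2
    exact congrArg (fun k : V ≃ₗ[F] V => k x) h3
  have hpl : ∀ h ∈ C, ∀ i, ∀ x ∈ f.P i, h x ∈ f.P i := by
    intro h hh i x hx
    apply f.mem_P_of h2 hg hinj
    rw [hcp h hh, hcp h hh, f.gg hx, map_sub, map_smul]
  have hσ : ∀ σ, ∀ h ∈ C, P σ * h * (P σ)⁻¹ ∈ C := by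
    intro σ h hh
    have hE : P σ * h * (P σ)⁻¹ ∈ E Q := conj_mem_E (hP1 σ) ((hCm h).1 hh).1
    refine (hCm _).2 ⟨hE, ?_⟩
    have hN : (P σ * h * (P σ)⁻¹) ^ Nat.card C = 1 := by
      have h3 : h ^ Nat.card C = 1 := by
        have h4 := pow_card_eq_one' (x := (⟨h, hh⟩ : C))
        exact congrArg Subtype.val h4
      rw [conj_pow, h3, mul_one, mul_inv_cancel]
    have hpres : ∀ j, ∀ x ∈ f.P j, (P σ * h * (P σ)⁻¹) x ∈ f.P j := by
      intro j x hx
      have h3 : (P σ)⁻¹ x ∈ f.P (σ⁻¹ j) := by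
        rw [← map_inv]
        exact hP2 _ _ _ hx
      have h4 := hP2 σ _ _ (hpl h hh _ _ h3)
      rw [show σ (σ⁻¹ j) = j from σ.apply_symm_apply j] at h4
      exact h4
    have hc := fun j => f.plane_comm h2 hg (E_le_O hE) (hpres j) hodd hN
    ext x
    change g ((P σ * h * (P σ)⁻¹) x) = (P σ * h * (P σ)⁻¹) (g x)
    obtain ⟨a, b, hab⟩ := f.span x
    rw [hab, map_sum, map_sum, map_sum, map_sum]
    refine Finset.sum_congr rfl fun i _ => ?_
    exact (hc i _ (f.mem_P.2 ⟨a i, b i, rfl⟩)).symm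
  have hnorm : ∀ σ, P σ ∈ normalizer (C : Set (V ≃ₗ[F] V)) := by
    intro σ
    rw [mem_normalizer_iff]
    intro h
    refine ⟨fun hh => hσ σ h hh, fun hh => ?_⟩
    have h3 := hσ σ⁻¹ _ hh
    have h4 : P σ⁻¹ * (P σ * h * (P σ)⁻¹) * (P σ⁻¹)⁻¹ = h := by
      rw [map_inv]; group
    rwa [h4] at h3
  intro hs
  have hcomm : ∀ σ ∈ commutator (Equiv.Perm (Fin m)), P σ ∈ E Q := by
    intro σ hσ'
    have h3 : (commutator (Equiv.Perm (Fin m))).map P ≤ E Q := by
      rw [_root_.commutator_def, Subgroup.map_commutator, ← hG.commutator_eq_E]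
      apply Subgroup.commutator_mono
      · rintro _ ⟨x, -, rfl⟩; exact hP1 x
      · rintro _ ⟨x, -, rfl⟩; exact hP1 x
    exact h3 ⟨σ, hσ', rfl⟩
  let φ : ↥(commutator (Equiv.Perm (Fin m))) →* ↥(E Q ⊓ normalizer (C : Set (V ≃ₗ[F] V))) :=
    { toFun := fun x => ⟨P x, hcomm _ x.2, hnorm _⟩
      map_one' := Subtype.ext (map_one P)
      map_mul' := fun a b => Subtype.ext (map_mul P _ _) }
  have hφ : Function.Injective φ := by
    intro a b hab
    exact Subtype.ext (hP3 (congrArg Subtype.val hab))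
  haveI := hs
  haveI h6 : Group.IsSolvable ↥(commutator (Equiv.Perm (Fin m))) := Group.isSolvable_of_isSolvable_injective hφ
  have h7 : Group.IsSolvable (Equiv.Perm (Fin m)) := by
    refine Group.isSolvable_of_ker_le_range (commutator (Equiv.Perm (Fin m))).subtype
      (Abelianization.of (G := Equiv.Perm (Fin m))) ?_
    rw [Abelianization.ker_of, Subgroup.range_subtype]
  exact Equiv.Perm.not_isSolvable (Fin m) (by simpa using hm) h7

/-- **Distinct eigenvalues: the centraliser is commutative.** -/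
theorem Fr.cent_comm (h2 : (2 : F) = 0) (hg : g ∈ O Q) (hinj : Function.Injective f.t) {h k : V ≃ₗ[F] V}
    (hh : g * h = h * g) (hk : g * k = k * g) : h * k = k * h := by
  have hcp : ∀ l : V ≃ₗ[F] V, g * l = l * g → ∀ x, g (l x) = l (g x) := by
    intro l hl x
    exact congrArg (fun k : V ≃ₗ[F] V => k x) hl
  have hpl : ∀ l : V ≃ₗ[F] V, g * l = l * g → ∀ i, ∀ x ∈ f.P i, l x ∈ f.P i := by
    intro l hl i x hx
    apply f.mem_P_of h2 hg hinj
    rw [hcp l hl, hcp l hl, f.gg hx, map_sub, map_smul]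
  have hform : ∀ l : V ≃ₗ[F] V, g * l = l * g → ∀ i, ∃ a b : F, ∀ x ∈ f.P i, l x = a • x + b • g x := by
    intro l hl i
    obtain ⟨a, b, hab⟩ := f.mem_P.1 (hpl l hl i _ (f.v_mem i))
    refine ⟨a, b, ?_⟩
    intro x hx
    obtain ⟨c, d, rfl⟩ := f.mem_P.1 hx
    have h3 : l (g (f.v i)) = a • g (f.v i) + b • g (g (f.v i)) := by
      rw [← hcp l hl, ← hab, map_add, map_smul, map_smul]
    rw [map_add, map_smul, map_smul, h3, ← hab, map_add, map_smul, map_smul]
    module
  ext x
  change h (k x) = k (h x)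
  obtain ⟨a, b, hab⟩ := f.span x
  rw [hab, map_sum, map_sum, map_sum, map_sum]
  refine Finset.sum_congr rfl fun i _ => ?_
  obtain ⟨y, hy⟩ : ∃ y, y = a i • f.v i + b i • g (f.v i) := ⟨_, rfl⟩
  have hyP : y ∈ f.P i := f.mem_P.2 ⟨a i, b i, hy.symm⟩
  rw [← hy]
  obtain ⟨c, d, hcd⟩ := hform h hh i
  obtain ⟨c', d', hcd'⟩ := hform k hk i
  rw [hcd _ (hpl k hk i y hyP), hcd' _ (hpl h hh i y hyP), hcd y hyP, hcd' y hyP]
  simp only [map_add, map_smul]
  module

end Main

end Cfsg.Agent.H310.OC
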