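import Cfsg.Agent.H381.Car.LemX

/-!
# Carter subgroups (S3852): the torus argument (helper310)

* `solvable_of_inf_le` : `K` Carter, `C ⊴ N` both `K`-invariant, `K ∩ N ≤ C`, `C` solvable: `N` is solvable;
* `solvable_normalizer_cent` : `z` central in `K`, `C = C_S(z)` solvable: `N_S(C)` is solvable.
-/

set_option autoImplicit false

namespace Cfsg.Agent.H310.Car

open Cfsg Subgroup Pointwise Cfsg.Agent.Solvable.Carter Cfsg.Agent.H18.Carter Cfsg.Agent.H381.Car

universe u

variable {G : Type u} [Group G] [Finite G]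

/-- **The torus argument.** -/
theorem solvable_of_inf_le (hF : Fpf.{u}) (IH : ∀ (B : Type u) [Group B] [Finite B], Nat.card B < Nat.card G → CC B)
    {K C N : Subgroup G} (hK : IsCarter K) (hCN : C ≤ N) (hNC : N ≤ normalizer (C : Set G))
    (hKC : K ≤ normalizer (C : Set G)) (hKN : K ≤ normalizer (N : Set G)) (hinf : K ⊓ N ≤ C)
    (hC : Group.IsSolvable C) : Group.IsSolvable N := by
  set Y : Subgroup G := K ⊔ N with hY
  have hKY : K ≤ Y := le_sup_left
  have hNY : N ≤ Y := le_sup_right
  have hCY : C ≤ Y := hCN.trans hNY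
  have hYC : Y ≤ normalizer (C : Set G) := sup_le hKC hNC
  have hYN : Y ≤ normalizer (N : Set G) := sup_le hKN le_normalizer
  haveI hCn : (C.subgroupOf Y).Normal := normal_subgroupOf_of_le_normalizer hYC
  haveI hNn : (N.subgroupOf Y).Normal := normal_subgroupOf_of_le_normalizer hYN
  let f := QuotientGroup.mk' (C.subgroupOf Y)
  have hfs : Function.Surjective f := QuotientGroup.mk'_surjective _
  have hKc : IsCarter ((K.subgroupOf Y).map f) := by
    refine IsCarter.map hfs ?_ (hK.subgroupOf hKY)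
    intro H hH
    refine IH H ?_
    calc Nat.card H < Nat.card Y := by
          refine lt_of_le_of_ne (Nat.le_of_dvd Nat.card_pos (card_subgroup_dvd_card H)) fun h => hH ?_
          exact eq_top_of_card_eq H h
      _ ≤ Nat.card G := Nat.le_of_dvd Nat.card_pos (card_subgroup_dvd_card Y)
  set Kb := (K.subgroupOf Y).map f with hKb
  set Nb := (N.subgroupOf Y).map f with hNb
  haveI hNbn : Nb.Normal := hNn.map f hfs
  have hinfb : Kb ⊓ Nb = ⊥ := by
    rw [eq_bot_iff]
    rintro z ⟨⟨k, hk, hkz⟩, ⟨n, hn, hnz⟩⟩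
    rw [SetLike.mem_coe, mem_subgroupOf] at hk hn
    have h1 : k⁻¹ * n ∈ C.subgroupOf Y := by
      rw [← QuotientGroup.eq]
      exact hkz.trans hnz.symm
    rw [mem_subgroupOf] at h1
    have h2 : (k : G) ∈ N := by
      have h3 := N.mul_mem hn (N.inv_mem (hCN h1))
      simpa using h3
    have h3 : (k : G) ∈ C := hinf ⟨hk, h2⟩
    rw [mem_bot, ← hkz]
    exact (QuotientGroup.eq_one_iff _).2 (mem_subgroupOf.2 h3)
  have hs : Group.IsSolvable Nb := by
    refine solvable_of_centralizer hF hKc.1 (le_normalizer_of_normal _ _) ?_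
    intro n hn hc
    have h1 : n ∈ normalizer (Kb : Set _) := by
      rw [mem_normalizer_iff]
      intro x
      constructor
      · intro hx
        have h2 : n * x * n⁻¹ = x := by rw [← hc x hx, mul_inv_cancel_right]
        rw [h2]; exact hx
      · intro hx
        have h2 := hc _ hx
        have h3 : x = n * x * n⁻¹ := by
          have h4 : n * x * n⁻¹ * n = n * (n * x * n⁻¹) := h2
          have h5 : n * x = n * (n * x * n⁻¹) := by rw [← h4]; group
          exact mul_left_cancel h5
        rw [h3]; exact hx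
    rw [hKc.2] at h1
    have h2 : n ∈ Kb ⊓ Nb := ⟨h1, hn⟩
    rwa [hinfb, mem_bot] at h2
  -- `N → Nb` has kernel `C`
  let g : ↥N →* ↥Nb :=
    { toFun := fun x => ⟨f ⟨x, hNY x.2⟩, ⟨⟨x, hNY x.2⟩, mem_subgroupOf.2 x.2, rfl⟩⟩
      map_one' := Subtype.ext (map_one f)
      map_mul' := fun a b => Subtype.ext (map_mul f ⟨a, hNY a.2⟩ ⟨b, hNY b.2⟩) }
  haveI := hC
  haveI := hs
  refine Group.isSolvable_of_ker_le_range (inclusion hCN) g ?_
  intro x hx
  have h1 : f ⟨x, hNY x.2⟩ = 1 := congrArg Subtype.val (MonoidHom.mem_ker.1 hx)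
  have h2 : (x : G) ∈ C := by
    have h3 := (QuotientGroup.eq_one_iff (⟨x, hNY x.2⟩ : Y)).1 h1
    exact mem_subgroupOf.1 h3
  exact ⟨⟨x, h2⟩, rfl⟩

/-- `z` central in `K`, `C = C_S(z)` solvable: `N_S(C)` is solvable. -/
theorem solvable_normalizer_cent (hF : Fpf.{u})
    (IH : ∀ (B : Type u) [Group B] [Finite B], Nat.card B < Nat.card G → CC B) {S K : Subgroup G} (hS : S.Normal)
    (hK : IsCarter K) {z : G} (hz : K ≤ centralizer ({z} : Set G))
    (hC : Group.IsSolvable ↥(S ⊓ centralizer ({z} : Set G))) :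
    Group.IsSolvable ↥(S ⊓ normalizer ((S ⊓ centralizer ({z} : Set G) : Subgroup G) : Set G)) := by
  have h1 : K ≤ normalizer ((S ⊓ centralizer ({z} : Set G) : Subgroup G) : Set G) :=
    le_normalizer_inf (le_normalizer_of_normal _ _) (hz.trans le_normalizer)
  refine solvable_of_inf_le hF IH hK (C := S ⊓ centralizer ({z} : Set G)) ?_ inf_le_right h1
    (le_normalizer_inf (le_normalizer_of_normal _ _) (h1.trans le_normalizer)) ?_ hC
  · exact le_inf inf_le_left le_normalizer
  · exact le_inf (inf_le_right.trans inf_le_left) (inf_le_left.trans hz)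

end Cfsg.Agent.H310.Car
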