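import Cfsg.Agent.H310.Car.OCExist
import Cfsg.Agent.H310.Car.Torus
import Cfsg.Agent.H507.GmnOrthRows

/-!
# Centralisers of central elements of Carter subgroups in `PΩ`, `q` even (helper310, for S3852)

`two_dvd` : `S ≃ PΩ(Q)`, `q` even, dimension at least 10, `z ∈ S` of odd prime order with `K ≤ C(z)`: `|C_S(z)|` is
even.  `two_dvd_plus`, `two_dvd_minus` : the rows.
-/

set_option autoImplicit false
set_option linter.unusedSectionVars false

namespace Cfsg.Agent.H310.OC

open Subgroup Cfsg.Agent.Solvable.Carter Cfsg.Agent.H18.Carter Cfsg.Agent.H381.Car Cfsg.Agent.H310.Car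

universe u v

section Transport

variable {G : Type u} [Group G] {L : Type v} [Group L] {S : Subgroup G} {θ : ↥S →* L} {E : Subgroup L}

theorem map_cent (hθ : Function.Injective θ) (hE : θ.range = E) {z : G} (hz : z ∈ S) :
    ((S ⊓ centralizer ({z} : Set G) : Subgroup G).subgroupOf S).map θ =
      E ⊓ centralizer ({θ ⟨z, hz⟩} : Set L) := by
  ext x
  constructor
  · rintro ⟨s, hs, rfl⟩
    refine ⟨hE ▸ ⟨s, rfl⟩, mem_centralizer_singleton_iff.2 ?_⟩
    have h1 := mem_centralizer_singleton_iff.1 (mem_subgroupOf.1 hs).2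
    rw [← map_mul, ← map_mul]
    exact congrArg θ (Subtype.ext h1)
  · rintro ⟨hx, hc⟩
    rw [SetLike.mem_coe, ← hE] at hx
    obtain ⟨s, rfl⟩ := hx
    refine ⟨s, mem_subgroupOf.2 ⟨s.2, mem_centralizer_singleton_iff.2 ?_⟩, rfl⟩
    have h1 := mem_centralizer_singleton_iff.1 hc
    rw [← map_mul, ← map_mul] at h1
    exact congrArg Subtype.val (hθ h1)

theorem card_map (hθ : Function.Injective θ) {A : Subgroup G} (hA : A ≤ S) :
    Nat.card ((A.subgroupOf S).map θ) = Nat.card A := by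
  rw [card_map_of_injective hθ]
  exact Nat.card_congr (subgroupOfEquivOfLe hA).toEquiv

theorem solvable_map_iff (hθ : Function.Injective θ) {A : Subgroup G} (hA : A ≤ S) :
    Group.IsSolvable ↥((A.subgroupOf S).map θ) ↔ Group.IsSolvable A := by
  have e1 := (A.subgroupOf S).equivMapOfInjective θ hθ
  have e2 := subgroupOfEquivOfLe hA
  have e := e1.symm.trans e2
  constructor
  · intro h
    exact Group.isSolvable_of_isSolvable_injective (f := e.symm.toMonoidHom) e.symm.injective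
  · intro h
    exact Group.isSolvable_of_isSolvable_injective (f := e.toMonoidHom) e.injective

theorem map_normalizer_le (hθ : Function.Injective θ) (hE : θ.range = E) {A : Subgroup G} (hA : A ≤ S) :
    E ⊓ normalizer (((A.subgroupOf S).map θ : Subgroup L) : Set L) ≤
      ((S ⊓ normalizer (A : Set G) : Subgroup G).subgroupOf S).map θ := by
  rintro x ⟨hx, hn⟩
  rw [SetLike.mem_coe, ← hE] at hx
  obtain ⟨s, rfl⟩ := hx
  refine ⟨s, mem_subgroupOf.2 ⟨s.2, ?_⟩, rfl⟩
  have hn : θ s ∈ normalizer (((A.subgroupOf S).map θ : Subgroup L) : Set L) := hn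
  rw [mem_normalizer_iff] at hn
  have key : ∀ a : G, ∀ ha : a ∈ S, a ∈ A ↔ θ ⟨a, ha⟩ ∈ (A.subgroupOf S).map θ := by
    intro a ha
    constructor
    · intro h; exact ⟨⟨a, ha⟩, mem_subgroupOf.2 h, rfl⟩
    · rintro ⟨b, hb, hab⟩
      have h1 := hθ hab
      have h2 : (b : G) = a := congrArg Subtype.val h1
      rw [← h2]; exact mem_subgroupOf.1 hb
  refine mem_normalizer_iff.2 fun a => ?_
  constructor
  · intro ha
    have h1 := (hn (θ ⟨a, hA ha⟩)).1 ((key a (hA ha)).1 ha)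
    rw [← map_inv, ← map_mul, ← map_mul] at h1
    exact (key _ (s * ⟨a, hA ha⟩ * s⁻¹ : S).2).2 h1
  · intro ha
    have haS : a ∈ S := by
      have h1 : (s⁻¹ : G) * (s * a * (s : G)⁻¹) * s ∈ S := S.mul_mem (S.mul_mem (S.inv_mem s.2) (hA ha)) s.2
      have h2 : (s⁻¹ : G) * (s * a * (s : G)⁻¹) * s = a := by group
      rwa [h2] at h1
    refine (key a haS).2 ((hn _).2 ?_)
    rw [← map_inv, ← map_mul, ← map_mul]
    exact (key _ (s * ⟨a, haS⟩ * s⁻¹ : S).2).1 ha

/-- transport of the alternative of `even_or` -/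
theorem two_dvd_of_alt [Finite G] [S.Normal] (hF : Fpf.{u})
    (IH : ∀ (B : Type u) [Group B] [Finite B], Nat.card B < Nat.card G → CC B) {K : Subgroup G} (hK : IsCarter K)
    (hθ : Function.Injective θ) (hE : θ.range = E) {z : G} (hz : z ∈ S) (hzK : K ≤ centralizer ({z} : Set G))
    (h : 2 ∣ Nat.card ↥(E ⊓ centralizer ({θ ⟨z, hz⟩} : Set L) : Subgroup L) ∨
      (Group.IsSolvable ↥(E ⊓ centralizer ({θ ⟨z, hz⟩} : Set L) : Subgroup L) ∧
        ¬ Group.IsSolvable ↥(E ⊓ normalizer ((E ⊓ centralizer ({θ ⟨z, hz⟩} : Set L) : Subgroup L) : Set L) :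
          Subgroup L))) :
    2 ∣ Nat.card ↥(S ⊓ centralizer ({z} : Set G)) := by
  have h1 := map_cent hθ hE hz
  rcases h with h | ⟨h3, h4⟩
  · rw [← h1, card_map hθ inf_le_left] at h
    exact h
  · exfalso
    rw [← h1] at h3 h4
    rw [solvable_map_iff hθ inf_le_left] at h3
    have h5 := solvable_normalizer_cent hF IH (S := S) inferInstance hK hzK h3
    rw [← solvable_map_iff hθ inf_le_left] at h5
    apply h4
    haveI := h5
    exact Group.isSolvable_of_isSolvable_injective (f := inclusion (map_normalizer_le hθ hE inf_le_left))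
      (inclusion_injective _)

end Transport

section Main

open QuadraticMap Matrix Module
open Cfsg.Agent.ClassicalGeometry.Reflection Cfsg.Agent.ClassicalGeometry.OrthCharTwo
open Cfsg.Agent.H507.GmnOrth Cfsg.Agent.H507.GmnOrthRows
open Cfsg.Agent.LieClassical.OrthCore hiding polar_self'
open Cfsg.Agent.LieClassical.OrthTrans Cfsg.Agent.LieClassical.OrthFinite

variable {ι : Type} [Fintype ι] [DecidableEq ι] {F : Type} [Field F] {Q : QuadraticForm F (ι → F)}

/-- `Ω → PΩ` is injective in characteristic 2 -/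
theorem mk_injective (h2 : (2 : F) = 0) (hQ : (polarBilin Q).Nondegenerate) (hn : 3 ≤ Fintype.card ι)
    (hs : ∃ u : ι → F, u ≠ 0 ∧ Q u = 0) :
    Function.Injective (QuotientGroup.mk' (Subgroup.center (Cfsg.Omega F (⇑Q)))) := by
  rw [injective_iff_map_eq_one]
  intro x hx
  have h1 : x ∈ Subgroup.center (Cfsg.Omega F (⇑Q)) := (QuotientGroup.eq_one_iff x).1 hx
  apply Subtype.ext
  apply Subtype.ext
  apply Units.ext
  change (((x : Cfsg.isometryGroup F (⇑Q)) : Matrix.GeneralLinearGroup ι F) : Matrix ι ι F) = 1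
  rcases (Cfsg.Agent.LieClassical.OrthCenter.mem_center_omega_iff hQ hn hs x).1 h1 with h3 | h3
  · exact h3
  · rw [h3]
    ext i j
    have h4 : ∀ a : F, -a = a := fun a => by linear_combination (-a) * h2
    rw [Matrix.neg_apply, h4]

/-- **The centraliser has even order.** -/
theorem two_dvd {G : Type u} [Group G] [Finite G] {S : Subgroup G} [S.Normal] (hF : Fpf.{u}) (c : Ctx G S)
    [Fintype F] (h2 : (2 : F) = 0) (hQ : (polarBilin Q).Nondegenerate) (hcard : 10 ≤ Fintype.card ι)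
    (e : S ≃* Cfsg.POmega F (⇑Q)) {K : Subgroup G} (hK : IsCarter K) {z : G} (hz : z ∈ S)
    (hzK : K ≤ centralizer ({z} : Set G)) {p : ℕ} (hp : p.Prime) (hp2 : p ≠ 2) (ho : orderOf z = p) :
    2 ∣ Nat.card ↥(S ⊓ centralizer ({z} : Set G)) := by
  classical
  have hpF : (p : F) ≠ 0 := by
    obtain ⟨k, hk⟩ := hp.odd_of_ne_two hp2
    rw [hk]
    push_cast
    rw [h2, zero_mul, zero_add]
    exact one_ne_zero
  have hs : ∃ u : ι → F, u ≠ 0 ∧ Q u = 0 :=
    (good_of_finite (nondeg_of_nondegenerate hQ) (by rw [finrank_fintype_fun_eq_card]; omega)).sing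
  have hmk := mk_injective h2 hQ (by omega) hs
  let π : Cfsg.Omega F (⇑Q) ≃* Cfsg.POmega F (⇑Q) :=
    MulEquiv.ofBijective (QuotientGroup.mk' _) ⟨hmk, QuotientGroup.mk'_surjective _⟩
  let φ : S ≃* Cfsg.Omega F (⇑Q) := e.trans π.symm
  obtain ⟨x, hx⟩ : ∃ x, x = φ ⟨z, hz⟩ := ⟨_, rfl⟩
  have hzp : z ^ p = 1 := by rw [← ho]; exact pow_orderOf_eq_one z
  have hxp : x ^ p = 1 := by
    rw [hx, ← map_pow]
    have h3 : (⟨z, hz⟩ : S) ^ p = 1 := Subtype.ext hzp
    rw [h3, map_one]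
  have hg : (x : Cfsg.isometryGroup F (⇑Q)) ^ p = 1 := by rw [← SubmonoidClass.coe_pow, hxp]; rfl
  -- conjugate to a power: equal to the power
  have key : ∀ k : ℕ, (∃ h ∈ Cfsg.Omega F (⇑Q), h * (x : Cfsg.isometryGroup F (⇑Q)) * h⁻¹ = x ^ k) → k ≡ 1 [MOD p] := by
    rintro k ⟨h, hh, hc⟩
    have h3 : (⟨h, hh⟩ : Cfsg.Omega F (⇑Q)) * x * (⟨h, hh⟩ : Cfsg.Omega F (⇑Q))⁻¹ = x ^ k := Subtype.ext hc
    obtain ⟨s, hs⟩ := φ.surjective ⟨h, hh⟩
    rw [← hs, hx, ← map_inv, ← map_mul, ← map_mul, ← map_pow] at h3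
    have h4 := congrArg Subtype.val (φ.injective h3)
    have h4 : (s : G) * z * (s : G)⁻¹ = z ^ k := h4
    have h5 := c.eq_of_conj hK hzK (g := (s : G)) (by
      rw [h4]
      intro y hy
      have h6 := mem_centralizer_singleton_iff.1 (hzK hy)
      exact mem_centralizer_singleton_iff.2 (Commute.pow_right (show Commute y z from h6) k))
    rw [h4] at h5
    have h6 : z ^ k = z ^ 1 := by rw [h5, pow_one]
    rw [pow_eq_pow_iff_modEq, ho] at h6
    exact h6
  by_cases hq : p ∣ Fintype.card F ^ 2 - 1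
  · by_cases hfix : ∃ u : ι → F, u ≠ 0 ∧ act (x : Cfsg.isometryGroup F (⇑Q)) u = u
    · exfalso
      obtain ⟨h, hh, hc⟩ := real_omega hp hp2 hpF hq hQ (by omega) (Or.inr (by omega)) hg (Or.inl hfix)
      have h3 : (x : Cfsg.isometryGroup F (⇑Q))⁻¹ = (x : Cfsg.isometryGroup F (⇑Q)) ^ (p - 1) := by
        rw [inv_eq_iff_mul_eq_one, ← pow_succ', Nat.sub_add_cancel hp.one_le, hg]
      have h4 := key (p - 1) ⟨h, hh, by rw [hc, h3]⟩
      have hp1 := hp.two_le
      have h5 := (Nat.modEq_iff_dvd' (by omega : 1 ≤ p - 1)).1 h4.symm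
      have h6 := Nat.le_of_dvd (by omega) h5
      omega
    · push Not at hfix
      have hfix' : ∀ u, act (x : Cfsg.isometryGroup F (⇑Q)) u = u → u = 0 := by
        intro u hu
        by_contra h0
        exact hfix u h0 hu
      let θ : S →* ((ι → F) ≃ₗ[F] (ι → F)) :=
        (isometryHom Q).comp ((Cfsg.Omega F (⇑Q)).subtype.comp φ.toMonoidHom)
      have hθ : Function.Injective θ :=
        (isometryHom_injective Q).comp ((Subgroup.subtype_injective _).comp φ.injective)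
      have hG : Good Q := good_of_finite (nondeg_of_nondegenerate hQ) (by
        rw [finrank_fintype_fun_eq_card]; omega)
      have hE : θ.range = E Q := by
        rw [← hG.commutator_eq_E, ← map_Omega]
        ext y
        constructor
        · rintro ⟨s, rfl⟩
          exact ⟨(φ s : Cfsg.isometryGroup F (⇑Q)), (φ s).2, rfl⟩
        · rintro ⟨w, hw, rfl⟩
          obtain ⟨s, hs⟩ := φ.surjective ⟨w, hw⟩
          refine ⟨s, ?_⟩
          change isometryHom Q ((φ s : Cfsg.Omega F (⇑Q)) : Cfsg.isometryGroup F (⇑Q)) = _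
          rw [hs]
      have hθz : θ ⟨z, hz⟩ = isometryHom Q (x : Cfsg.isometryGroup F (⇑Q)) := by
        rw [hx]; rfl
      refine two_dvd_of_alt hF c.min hK hθ hE hz hzK ?_
      rw [hθz]
      exact even_or h2 hp hp2 hq hQ hcard hg hfix'
  · exfalso
    obtain ⟨h, hh⟩ := exists_conj_pow hQ hp hp2 hpF hg
    have h1 : h * h * (x : Cfsg.isometryGroup F (⇑Q)) * (h * h)⁻¹ =
        (x : Cfsg.isometryGroup F (⇑Q)) ^ (Fintype.card F ^ 2) := by
      calc h * h * (x : Cfsg.isometryGroup F (⇑Q)) * (h * h)⁻¹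
          = h * (h * (x : Cfsg.isometryGroup F (⇑Q)) * h⁻¹) * h⁻¹ := by group
        _ = _ := by rw [hh, ← conj_pow, hh, ← pow_mul, pow_two]
    have h3 := key _ ⟨h * h, sq_mem_omega hQ (by omega) (Or.inr (by omega)) h, h1⟩
    exact hq ((Nat.modEq_iff_dvd' (Nat.one_le_pow _ _ Fintype.card_pos)).1 h3.symm)

end Main

section Rows

open Cfsg.Agent.GenOrth Cfsg.Agent.LieClassical.OmegaReindex

variable {G : Type u} [Group G] [Finite G] {S : Subgroup G} [S.Normal]

/-- plus type -/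
theorem two_dvd_plus (hF : Fpf.{u}) (c : Ctx G S) {F : Type} [Field F] [Fintype F] (h2 : (2 : F) = 0) {m : ℕ}
    (hm : 5 ≤ m) (e : S ≃* Cfsg.POmega F (Cfsg.quadFormPlus m F)) {K : Subgroup G} (hK : IsCarter K) {z : G}
    (hz : z ∈ S) (hzK : K ≤ centralizer ({z} : Set G)) {p : ℕ} (hp : p.Prime) (hp2 : p ≠ 2) (ho : orderOf z = p) :
    2 ∣ Nat.card ↥(S ⊓ centralizer ({z} : Set G)) := by
  rw [← coe_quadPlus] at e
  refine two_dvd hF c h2 quadPlus_nondegenerate ?_ e hK hz hzK hp hp2 ho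
  simp only [Fintype.card_sum, Fintype.card_fin]
  omega

/-- minus type -/
theorem two_dvd_minus (hF : Fpf.{u}) (c : Ctx G S) {F : Type} [Field F] [Fintype F] (h2 : (2 : F) = 0) {m : ℕ}
    (hm : 5 ≤ m) {a b : F} (hab : ∀ z₁ z₂ : F, z₁ ^ 2 + a * z₁ * z₂ + b * z₂ ^ 2 = 0 → z₁ = 0 ∧ z₂ = 0)
    (e : S ≃* Cfsg.POmega F (Cfsg.quadFormMinus (m - 1) F a b)) {K : Subgroup G} (hK : IsCarter K) {z : G}
    (hz : z ∈ S) (hzK : K ≤ centralizer ({z} : Set G)) {p : ℕ} (hp : p.Prime) (hp2 : p ≠ 2) (ho : orderOf z = p) :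
    2 ∣ Nat.card ↥(S ⊓ centralizer ({z} : Set G)) := by
  rw [← coe_quadMinus] at e
  refine two_dvd hF c h2 (quadMinus_nondegenerate hab) ?_ e hK hz hzK hp hp2 ho
  simp only [Fintype.card_sum, Fintype.card_fin]
  omega

end Rows

end Cfsg.Agent.H310.OC
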