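import Cfsg.Agent.H310.Car.OCRow
import Cfsg.Agent.H460.Car.Bridge
import Cfsg.Agent.KFacts.RgdFiltClass

/-!
# S3852, the rows `PΩ^ε_{2m}(q)`, `q` even, `m ≥ 5` (helper310)
-/

set_option autoImplicit false
set_option linter.unusedSectionVars false

namespace Cfsg.Agent.H310.OC

open Subgroup Cfsg.Agent.Solvable.Carter Cfsg.Agent.H18.Carter Cfsg.Agent.H381.Car

universe u

variable {G : Type u} [Group G] [Finite G] {S : Subgroup G} [S.Normal]

theorem charP_two {F : Type} [Field F] (h2 : (2 : F) = 0) : CharP F 2 := by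
  have h := CharP.ringChar_of_prime_eq_zero Nat.prime_two (show ((2 : ℕ) : F) = 0 by exact_mod_cast h2)
  rw [← h]
  exact ringChar.charP F

/-- plus type -/
theorem row_plus_even (hFp : Fpf.{u}) (hFT : Cfsg.Agent.H460.Car.FT.{u}) (hE : Cfsg.Agent.H460.Car.ExcOk.{u})
    (c : Ctx G S) (IH : IHr G) {F : Type} [Field F] [Fintype F] (h2 : (2 : F) = 0) {m : ℕ} (hm : 5 ≤ m)
    (e : S ≃* Cfsg.POmega F (Cfsg.quadFormPlus m F)) : NrAll S := by
  haveI := charP_two h2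
  refine Cfsg.Agent.H460.Car.nrAll_even hFp hFT hE c IH
    (Cfsg.Agent.KFacts.RgdFiltClass.hasFilt_of_POmegaPlus ⟨F, inferInstance, inferInstance, inferInstance, m, by omega,
      ⟨e⟩⟩) ?_
  intro K hK r hr hr2 z hzS _ ho hzK
  exact Or.inl (two_dvd_plus hFp c h2 hm e hK hzS hzK hr hr2 ho)

/-- minus type -/
theorem row_minus_even (hFp : Fpf.{u}) (hFT : Cfsg.Agent.H460.Car.FT.{u}) (hE : Cfsg.Agent.H460.Car.ExcOk.{u})
    (c : Ctx G S) (IH : IHr G) {F : Type} [Field F] [Fintype F] (h2 : (2 : F) = 0) {m : ℕ} (hm : 5 ≤ m) {a b : F}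
    (hab : ∀ z₁ z₂ : F, z₁ ^ 2 + a * z₁ * z₂ + b * z₂ ^ 2 = 0 → z₁ = 0 ∧ z₂ = 0)
    (e : S ≃* Cfsg.POmega F (Cfsg.quadFormMinus (m - 1) F a b)) : NrAll S := by
  haveI := charP_two h2
  refine Cfsg.Agent.H460.Car.nrAll_even hFp hFT hE c IH
    (Cfsg.Agent.KFacts.RgdFiltClass.hasFilt_of_POmegaMinus ⟨F, inferInstance, inferInstance, inferInstance, m, a, b,
      by omega, hab, ⟨e⟩⟩) ?_
  intro K hK r hr hr2 z hzS _ ho hzK
  exact Or.inl (two_dvd_minus hFp c h2 hm hab e hK hzS hzK hr hr2 ho)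

end Cfsg.Agent.H310.OC
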